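/-
Project SQF (S4132): groups in which no element of prime-power order has class size divisible by 4
are solvable (2-local proof), and the structure of groups with square-free such class sizes.
-/
import Cfsg.Agent.Base
import Cfsg.Agent.Even.Amb
import Cfsg.Agent.Fgs.ClassBasic

set_option autoImplicit false

namespace CL.Sqf

open Cfsg Subgroup CL.Even CL.Fgs

universe u

section defs
variable {G : Type*} [Group G]

/-- prime-power order -/
def Prim (x : G) : Prop := ∃ r k : ℕ, r.Prime ∧ orderOf x = r ^ k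
/-- odd prime-power order (`1` is allowed) -/
def OddP (x : G) : Prop := ∃ r k : ℕ, r.Prime ∧ r ≠ 2 ∧ orderOf x = r ^ k
/-- 2-element -/
def Two (x : G) : Prop := ∃ k : ℕ, x ^ 2 ^ k = 1
/-- no involution commutes with `x` -/
def Iso (x : G) : Prop := ∀ h : G, h * h = 1 → h * x = x * h → h = 1
/-- `C_S(y)` has index at most 2 in `S` -/
def Br (S : Subgroup G) (y : G) : Prop :=
  ∀ a ∈ S, ∀ b ∈ S, a * y ≠ y * a → b * y ≠ y * b → a * b * y = y * (a * b)
/-- all 2-elements have order dividing `2^(n+1)` -/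
def Ex (G : Type*) [Group G] (n : ℕ) : Prop := ∀ x : G, Two x → x ^ 2 ^ (n + 1) = 1
/-- no primary class size is divisible by 4 -/
def P4 (G : Type*) [Group G] : Prop := ∀ x : G, Prim x → ¬ 4 ∣ cs(x)
/-- all primary class sizes are square-free -/
def SQ (G : Type*) [Group G] : Prop := ∀ x : G, Prim x → Squarefree cs(x)
/-- dihedral (any order) or quasi-dihedral -/
def DS (S : Type*) [Group S] : Prop := (∃ n : ℕ, Nonempty (S ≃* DihedralGroup n)) ∨ IsQuasiDihedral S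
/-- `{1, a, b, ab}` is a four-group -/
def Four (a b : G) : Prop := a * a = 1 ∧ b * b = 1 ∧ a * b = b * a ∧ a ≠ 1 ∧ b ≠ 1 ∧ a ≠ b
/-- some odd primary element has a centraliser of odd order -/
def Fine (L : Type*) [Group L] : Prop := ∃ x : L, OddP x ∧ Iso x
/-- `Fine`, and an involutory automorphism fixing the element fixes two elements of odd order with even product -/
def Good (L : Type*) [Group L] : Prop :=
  ∃ x : L, OddP x ∧ Iso x ∧ ∀ φ : MulAut L, (∀ g, φ (φ g) = g) → φ x = x →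
    ∃ a b : L, φ a = a ∧ φ b = b ∧ Odd (orderOf a) ∧ Odd (orderOf b) ∧ Even (orderOf (a * b))

/-- the maximal configuration -/
structure Cfg (R : Subgroup G) (u t : G) : Prop where
  two : IsPGroup 2 R
  mem : u ∈ R
  cen : ∀ ρ ∈ R, ρ * u = u * ρ
  dich : ∀ D : Subgroup G, IsPGroup 2 D → R ≤ D →
    (∀ d ∈ D, d * u = u * d) ∨ ∀ d ∈ D, d * u = u * d → d ∈ R
  tn : t ∈ 𝒩(R)
  tt : t * t ∈ R
  tu : t * u ≠ u * t

/-- the maximal configuration with its first consequences -/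
structure Cf (R : Subgroup G) (u t : G) : Prop extends Cfg R u t where
  dc : ∀ g ∈ 𝒩(R), ∀ D : Subgroup G, IsPGroup 2 D → R ≤ D →
    (∀ d ∈ D, d * (g * u * g⁻¹) = g * u * g⁻¹ * d) ∨ ∀ d ∈ D, d * (g * u * g⁻¹) = g * u * g⁻¹ * d → d ∈ R
  cv : ∀ c ∈ 𝒩(R), Two c → (∀ g ∈ 𝒩(R), c * (g * u * g⁻¹) = g * u * g⁻¹ * c) → c ∈ R
  se : ∀ a ∈ 𝒩(R), ∀ b ∈ 𝒩(R), a * a ∈ R → b * b ∈ R → a ∉ R → a * u = u * a → b * u ≠ u * b →
    ∃ j : ℕ, (a * b) ^ (2 * j + 1) ∈ R ∧ ∃ ρ ∈ R, b = (a * b) ^ j * a * ((a * b) ^ j)⁻¹ * ρ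

/-- the configuration with `u = y^(2^n)`, `y` of breadth at most 1 in the Sylow subgroup `S` -/
structure Cy (R : Subgroup G) (u t : G) (S : Sylow 2 G) (y : G) (n : ℕ) : Prop extends Cf R u t where
  ex : Ex G n
  le : R ≤ (S : Subgroup G)
  ymem : y ∈ (S : Subgroup G)
  br : Br (S : Subgroup G) y
  pw : u = y ^ 2 ^ n
  zs : ∀ s ∈ (S : Subgroup G), s * u = u * s

/-- case alpha -/
structure Al (R : Subgroup G) (u t y t1 : G) (n : ℕ) : Prop extends Cf R u t where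
  ex : Ex G n
  ymem : y ∈ R
  br : Br R y
  pw : u = y ^ 2 ^ n
  n1 : t1 ∈ 𝒩(R)
  nm : t1 ∉ R
  sq : t1 * t1 ∈ R
  ty : t1 * y = y * t1
  cl : ∀ s ∈ 𝒩(R), s * s ∈ R → s * u ≠ u * s → y * (s * y * s⁻¹) = s * y * s⁻¹ * y → y * (s * s) ≠ s * s * y

/-- `a` induces a transvection with centre `c` on `R` -/
structure Tv (R : Subgroup G) (a c : G) : Prop where
  nr : a ∈ 𝒩(R)
  nm : a ∉ R
  sq : a * a ∈ R
  cm : c ∈ R
  cc : c * c = 1
  cen : ∀ ρ ∈ R, ρ * c = c * ρ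
  ac : a * c = c * a
  act : ∀ ρ ∈ R, a * ρ * a⁻¹ = ρ ∨ a * ρ * a⁻¹ = ρ * c

/-- case beta; `R₀ = R ⊓ cent(a) ⊓ cent(b)` -/
structure Be (R : Subgroup G) (u t a b c d : G) : Prop extends Cf R u t where
  ta : Tv R a c
  tb : Tv R b d
  au : a * u = u * a
  bu : b * u ≠ u * b
  ad : a * d * a⁻¹ = d * c
  bc : b * c * b⁻¹ = c * d
  c1 : c ≠ 1
  d1 : d ≠ 1

end defs

/-! ### the jobs -/

def MX : Prop := ∀ (G : Type u) [Group G] [Finite G] (R : Subgroup G) (u t : G), Cfg R u t → Cf R u t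

def BR1 : Prop := ∀ (G : Type u) [Group G] [Finite G] (n : ℕ), P4 G → Ex G n → ∀ y : G, Two y →
  ∃ S : Sylow 2 G, y ∈ (S : Subgroup G) ∧ Br (S : Subgroup G) y ∧ ∀ s ∈ (S : Subgroup G), s * y ^ 2 ^ n = y ^ 2 ^ n * s

def BR3 : Prop := ∀ (G : Type u) [Group G] [Finite G], P4 G → ∀ (x : G) (Q : Subgroup G), Prim x → IsPGroup 2 Q →
  (∀ ρ ∈ Q, ρ * x = x * ρ) → 4 * Nat.card Q ∣ Nat.card G →
  ∃ h ∈ 𝒩(Q), h ∉ Q ∧ h * h ∈ Q ∧ h * x = x * h

/-- all `2^n`-th powers of 2-elements are central in every Sylow subgroup containing them -/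
def AllC (G : Type*) [Group G] (n : ℕ) : Prop :=
  ∀ (S : Sylow 2 G) (y : G), Two y → y ^ 2 ^ n ∈ (S : Subgroup G) → ∀ s ∈ (S : Subgroup G), s * y ^ 2 ^ n = y ^ 2 ^ n * s

def SC1 : Prop := MX.{u} → BR1.{u} → ∀ (G : Type u) [Group G] [Finite G] (n : ℕ), P4 G → Ex G n → ¬ AllC G n →
  ∃ (R : Subgroup G) (u t : G) (S : Sylow 2 G) (y : G), Cy R u t S y n

def SC2 : Prop := MX.{u} → ∀ (G : Type u) [Group G] [Finite G] (n : ℕ), AllC G n → ∀ S : Sylow 2 G,
  ∃ A : Subgroup G, (∀ s ∈ (S : Subgroup G), s ^ 2 ^ n ∈ A) ∧ IsMulCommutative A ∧ IsStronglyClosed A (S : Subgroup G)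

def AL0 : Prop := ∀ (G : Type u) [Group G] [Finite G] (R : Subgroup G) (u t : G) (S : Sylow 2 G) (y : G) (n : ℕ),
  Cy R u t S y n → (∀ g ∈ 𝒩(R), y * (g * u * g⁻¹) = g * u * g⁻¹ * y) → ∃ t1 : G, Al R u t y t1 n

def AL1 : Prop := ∀ (G : Type u) [Group G] [Finite G] (R : Subgroup G) (u t y t1 : G) (n : ℕ),
  Al R u t y t1 n → y * (t * y * t⁻¹) ≠ t * y * t⁻¹ * y

def AL2 : Prop := ∀ (G : Type u) [Group G] [Finite G] (R : Subgroup G) (u t y t1 : G) (n : ℕ),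
  Al R u t y t1 n → y * (t * y * t⁻¹) = t * y * t⁻¹ * y

def LT : Prop := ∀ (G : Type u) [Group G] [Finite G] (R : Subgroup G) (u t a b c d : G),
  Cf R u t → Tv R a c → Tv R b d → a * u = u * a → b * u ≠ u * b → a * d ≠ d * a ∧ b * c ≠ c * b

def BE0 : Prop := LT.{u} → ∀ (G : Type u) [Group G] [Finite G] (R : Subgroup G) (u t : G) (S : Sylow 2 G) (y : G) (n : ℕ),
  Cy R u t S y n → (∃ g ∈ 𝒩(R), y * (g * u * g⁻¹) ≠ g * u * g⁻¹ * y) → ∃ a b c d : G, Be R u t a b c d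

/-- the centraliser of `d` modulo `R₀` in a 2-group -/
def CD : Prop := ∀ (G : Type u) [Group G] [Finite G] (R : Subgroup G) (u t a b c d : G), Be R u t a b c d →
  ∀ P : Subgroup G, IsPGroup 2 P → R ≤ P → a ∈ P → P ≤ 𝒩(R ⊓ cent(a) ⊓ cent(b)) →
    ∀ g ∈ P, g * d * g⁻¹ * d⁻¹ ∈ R ⊓ cent(a) ⊓ cent(b) → g ∈ R

def BE2 : Prop := LT.{u} → CD.{u}

/-- Lemma Q -/
def LQ : Prop := ∀ (X : Type u) [Group X] [Finite X] (S : Sylow 2 X) (K : Subgroup X) [K.Normal] (a b σ : X),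
  DS (S : Subgroup X) → Four a b → a ∈ K → b ∈ K → σ ∈ K → σ * a * σ⁻¹ = b → σ * b * σ⁻¹ = a * b →
  ∃ x ∈ K, OddP x ∧ Iso x

def FIN : Prop := CD.{u} → LQ.{u} → BR3.{u} → ∀ (G : Type u) [Group G] [Finite G] (R : Subgroup G) (u t a b c d : G),
  P4 G → ¬ Be R u t a b c d

def TG1 : Prop := ∀ (S : Type u) [Group S] [Finite S], IsPGroup 2 S → DS S → ∀ a b c : S, Four a b →
  c * a = a * c → c * b = b * c → c = 1 ∨ c = a ∨ c = b ∨ c = a * b

def TG2 : Prop := ∀ (S : Type u) [Group S] [Finite S], IsPGroup 2 S → DS S → ∀ (T : Subgroup S) [T.Normal] (a b : S),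
  Four a b → a ∈ T → b ∈ T →
    ((∃ n : ℕ, 2 ≤ n ∧ Nonempty (T ≃* DihedralGroup n)) ∧
      ((∃ m : ℕ, 2 ≤ m ∧ Nonempty (S ≃* DihedralGroup m)) ∨ ∀ s : S, s * s = 1 → s ∈ T)) ∨
    (T = ⊤ ∧ IsQuasiDihedral S)

def QL2 : Prop := ∀ (F : Type) [Field F] [Fintype F], Odd (Fintype.card F) →
  Good (Matrix.ProjectiveSpecialLinearGroup (Fin 2) F)

def QE2 : Prop := ∀ (F : Type) [Field F] [Fintype F] (n : ℕ), 2 ≤ n → Fintype.card F = 2 ^ n →
  Fine (Matrix.ProjectiveSpecialLinearGroup (Fin 2) F)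

def QA7 : Prop := Good (alternatingGroup (Fin 7))

def QL3 : Prop := ∀ (F : Type) [Field F] [Fintype F], Odd (Fintype.card F) →
  Fine (Matrix.ProjectiveSpecialLinearGroup (Fin 3) F)

def QU3 : Prop := ∀ (F : Type) [Field F] [Fintype F] (q : ℕ), Fintype.card F = q ^ 2 → q % 4 = 1 → Fine (PSU 3 F q)

/-- Lemma Q for a perfect normal subgroup -/
def LQP : Prop := ∀ (X : Type u) [Group X] [Finite X] (S : Sylow 2 X) (N : Subgroup X) [N.Normal] (a b : X),
  DS (S : Subgroup X) → oddCore X = ⊥ → Group.IsPerfect N → Four a b → a ∈ N → b ∈ N → ∃ x ∈ N, OddP x ∧ Iso x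

def QP : Prop := TG2.{u} → QL2 → QA7 → QL3 → QU3 → LQP.{u}

def QR : Prop := TG1.{u} → LQP.{u} → LQ.{u}

def SEM : Prop := ∀ (G : Type u) [Group G] [Finite G] (M : Subgroup G), IsStronglyEmbedded M → Fine G

def AB : Prop := QL2 → QE2 → BR3.{u} → ∀ (G : Type u) [Group G] [Finite G] [IsSimpleGroup G],
  ¬ IsMulCommutative G → ∀ S : Sylow 2 G, IsMulCommutative (S : Subgroup G) → ¬ P4 G

def SS : Prop := ∀ (G : Type u) [Group G] [Finite G], Group.IsSolvable G → SQ G → IsSupersolvable G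

def FA : Prop := ∀ (G : Type u) [Group G] [Finite G], IsSupersolvable G → SQ G →
  ∀ _h : (fittingSubgroup G).Normal,
    IsMulCommutative (G ⧸ fittingSubgroup G) ∧ Squarefree (Monoid.exponent (G ⧸ fittingSubgroup G))

def FD : Prop := ∀ (G : Type u) [Group G] [Finite G], SQ G →
  Squarefree (Nat.card (commutator ↥(fittingSubgroup G))) ∧
    (commutator G ≤ fittingSubgroup G → derivedSeries G 3 = ⊥)

/-! ### small tools -/

section tools
variable {G : Type*} [Group G]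

theorem OddP.prim {x : G} (h : OddP x) : Prim x := let ⟨r, k, a, _, b⟩ := h; ⟨r, k, a, b⟩

theorem OddP.odd {x : G} (h : OddP x) : Odd (orderOf x) := by
  obtain ⟨r, k, a, b, c⟩ := h
  rw [c]; exact (a.odd_of_ne_two b).pow

theorem Two.prim {x : G} (h : Two x) : Prim x := by
  obtain ⟨k, hk⟩ := h
  obtain ⟨j, -, hj⟩ := (Nat.dvd_prime_pow Nat.prime_two).1 (orderOf_dvd_of_pow_eq_one hk)
  exact ⟨2, j, Nat.prime_two, hj⟩

theorem two_of_mem {P : Subgroup G} (hP : IsPGroup 2 P) {x : G} (hx : x ∈ P) : Two x := by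
  obtain ⟨k, hk⟩ := hP ⟨x, hx⟩
  exact ⟨k, by simpa using congrArg Subtype.val hk⟩

/-- elements of `r`-power order lift along surjections, inside the cyclic group of any preimage -/
theorem exists_lift [Finite G] {H : Type*} [Group H] (f : G →* H) (g : G) {r k : ℕ} (hr : r.Prime)
    (h : orderOf (f g) = r ^ k) : ∃ m j : ℕ, f (g ^ m) = f g ∧ orderOf (g ^ m) = r ^ j := by
  obtain ⟨j, s, hs, e⟩ := Nat.exists_eq_pow_mul_and_not_dvd (orderOf_pos g).ne' r hr.ne_one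
  have hc : Nat.Coprime s (r ^ k) := ((Nat.Prime.coprime_iff_not_dvd hr).2 hs).symm.pow_right k
  obtain ⟨m, hm1, hm2⟩ := Nat.chineseRemainder hc 0 1
  refine ⟨m, ?_⟩
  have h1 : f (g ^ m) = f g := by
    rw [map_pow]
    conv_rhs => rw [← pow_one (f g)]
    rw [pow_eq_pow_iff_modEq, h]; exact hm2
  have h2 : orderOf (g ^ m) ∣ r ^ j := by
    apply orderOf_dvd_of_pow_eq_one
    rw [← pow_mul]
    apply orderOf_dvd_iff_pow_eq_one.1
    rw [e, mul_comm m]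
    exact Nat.mul_dvd_mul_left _ ((Nat.modEq_zero_iff_dvd).1 hm1)
  obtain ⟨i, -, hi⟩ := (Nat.dvd_prime_pow hr).1 h2
  exact ⟨i, h1, hi⟩

theorem SQ.p4 (h : SQ G) : P4 G := fun x hx h4 => by
  have := h x hx 2 (by simpa using h4)
  simp at this

theorem prim_coe {N : Subgroup G} {x : N} (h : Prim x) : Prim (x : G) := by
  obtain ⟨r, k, a, b⟩ := h
  exact ⟨r, k, a, by rw [Subgroup.orderOf_coe, b]⟩

theorem P4.normal [Finite G] (h : P4 G) (N : Subgroup G) [N.Normal] : P4 N :=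
  fun x hx h4 => h x (prim_coe hx) (h4.trans (cs_coe_dvd x))

theorem SQ.normal [Finite G] (h : SQ G) (N : Subgroup G) [N.Normal] : SQ N :=
  fun x hx => (h x (prim_coe hx)).squarefree_of_dvd (cs_coe_dvd x)

theorem exists_prim_lift [Finite G] {H : Type*} [Group H] {f : G →* H} (hf : Function.Surjective f) {x : H}
    (hx : Prim x) : ∃ g : G, f g = x ∧ Prim g := by
  obtain ⟨r, k, a, b⟩ := hx
  obtain ⟨g, rfl⟩ := hf x
  obtain ⟨m, j, h1, h2⟩ := exists_lift f g a b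
  exact ⟨g ^ m, h1, r, j, a, h2⟩

theorem P4.map [Finite G] (h : P4 G) {H : Type*} [Group H] {f : G →* H} (hf : Function.Surjective f) : P4 H := by
  intro x hx h4
  obtain ⟨g, rfl, hg⟩ := exists_prim_lift hf hx
  exact h g hg (h4.trans (cs_map_dvd hf g))

theorem SQ.map [Finite G] (h : SQ G) {H : Type*} [Group H] {f : G →* H} (hf : Function.Surjective f) : SQ H := by
  intro x hx
  obtain ⟨g, rfl, hg⟩ := exists_prim_lift hf hx
  exact (h g hg).squarefree_of_dvd (cs_map_dvd hf g)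

theorem Fine.congr {H : Type*} [Group H] (e : G ≃* H) (h : Fine G) : Fine H := by
  obtain ⟨x, ⟨r, k, a, b, c⟩, hx⟩ := h
  refine ⟨e x, ⟨r, k, a, b, by rw [MulEquiv.orderOf_eq, c]⟩, fun g h1 h2 => ?_⟩
  obtain ⟨g, rfl⟩ := e.surjective g
  rw [hx g (e.injective (by simpa using h1)) (e.injective (by simpa using h2)), map_one]

theorem Good.fine (h : Good G) : Fine G := let ⟨x, a, b, _⟩ := h; ⟨x, a, b⟩

theorem Good.congr {H : Type*} [Group H] (e : G ≃* H) (h : Good G) : Good H := by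
  obtain ⟨x, ⟨r, k, a, b, c⟩, hx, hφ⟩ := h
  refine ⟨e x, ⟨r, k, a, b, by rw [MulEquiv.orderOf_eq, c]⟩, fun g h1 h2 => ?_, fun φ h1 h2 => ?_⟩
  · obtain ⟨g, rfl⟩ := e.surjective g
    rw [hx g (e.injective (by simpa using h1)) (e.injective (by simpa using h2)), map_one]
  · obtain ⟨p, q, h3, h4, h5, h6, h7⟩ := hφ (e.trans (φ.trans e.symm)) (fun g => by simp [h1]) (by simp [h2])
    refine ⟨e p, e q, ?_, ?_, by rwa [MulEquiv.orderOf_eq], by rwa [MulEquiv.orderOf_eq], ?_⟩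
    · simpa using congrArg e h3
    · simpa using congrArg e h4
    · rwa [← map_mul, MulEquiv.orderOf_eq]

/-- normalisers grow in 2-groups, by an element with square in `R` -/
theorem exists_up [Finite G] {R D : Subgroup G} (hD : IsPGroup 2 D) (hle : R ≤ D) (hne : ¬ D ≤ R) :
    ∃ s ∈ D, s ∈ 𝒩(R) ∧ s ∉ R ∧ s * s ∈ R := by
  classical
  have : Fact (Nat.Prime 2) := ⟨Nat.prime_two⟩
  have hn := hD.isNilpotent
  have hlt : R.subgroupOf D < ⊤ := lt_top_iff_ne_top.2 fun h => hne (subgroupOf_eq_top.1 h)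
  obtain ⟨⟨s, hsD⟩, h1, h2⟩ := SetLike.exists_of_lt
    (Group.normalizerCondition_of_isNilpotent (G := D) _ hlt)
  have hs : s ∈ 𝒩(R) := by
    rw [mem_normalizer_iff] at h1 ⊢
    intro x
    constructor
    · intro hx
      exact (h1 ⟨x, hle hx⟩).1 hx
    · intro hx
      have hxD : x ∈ D := by
        have := D.mul_mem (D.mul_mem (D.inv_mem hsD) (hle hx)) hsD
        simpa [mul_assoc] using this
      exact (h1 ⟨x, hxD⟩).2 hx
  have hsR : s ∉ R := h2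
  obtain ⟨k, hk⟩ := two_of_mem hD hsD
  have hex : ∃ i : ℕ, s ^ 2 ^ i ∈ R := ⟨k, by rw [hk]; exact R.one_mem⟩
  have h0 : Nat.find hex ≠ 0 := fun h => hsR (by simpa [h] using Nat.find_spec hex)
  obtain ⟨i, hi⟩ := Nat.exists_eq_succ_of_ne_zero h0
  refine ⟨s ^ 2 ^ i, D.pow_mem hsD _, pow_mem hs _, Nat.find_min hex (by omega), ?_⟩
  have := Nat.find_spec hex
  rwa [hi, pow_succ, pow_mul, pow_two] at this

end tools

end CL.Sqf
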