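/-
Project SQF: entering case alpha.
-/
import Cfsg.Agent.SQF.Defs

set_option autoImplicit false

namespace CL.Sqf

open Cfsg Subgroup CL.Even CL.Fgs

universe u

namespace AL0x

variable {G : Type u} [Group G]

theorem two_of_sq {R : Subgroup G} (hR : IsPGroup 2 R) {x : G} (h : x * x ∈ R) : Two x := by
  obtain ⟨k, hk⟩ := two_of_mem hR h
  exact ⟨k + 1, by rw [pow_succ', pow_mul, pow_two, hk]⟩

theorem norm_T {S : Subgroup G} {y : G} (br : Br S y) : S ≤ 𝒩(S ⊓ centralizer {y}) :=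
  le_normalizer_iff.2 fun s hs τ hτ => mem_inf.2 ⟨mul_mem (mul_mem hs hτ.1) (inv_mem hs), by
    have k : τ ∈ centralizer {y} := hτ.2
    by_cases e : s ∈ centralizer {y}
    · exact mul_mem (mul_mem e k) (inv_mem e)
    · refine mem_centralizer_singleton_iff.2 ?_
      rw [mul_assoc s τ]
      refine br s hs _ (mul_mem hτ.1 (inv_mem hs)) (fun c => e (mem_centralizer_singleton_iff.2 c)) fun c => e ?_
      exact inv_mem_iff.1 ((mul_mem_cancel_left k).1 (mem_centralizer_singleton_iff.2 c))⟩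

theorem ymem [Finite G] {R : Subgroup G} {u t y : G} {S : Sylow 2 G} {n : ℕ} (h : Cy R u t S y n)
    (hy : ∀ g ∈ 𝒩(R), y * (g * u * g⁻¹) = g * u * g⁻¹ * y) : y ∈ R := by
  have hT := norm_T h.br
  set T := (S : Subgroup G) ⊓ centralizer {y} with eT
  have aS : T ⊓ 𝒞(T) ≤ S := inf_le_left.trans inf_le_left
  have : T ⊓ 𝒞(T) ≤ R := by
    by_contra n
    obtain ⟨s, hs, sn, sR, -⟩ := exists_up (R := R) (D := R ⊔ T ⊓ 𝒞(T)) (S.isPGroup'.to_le (sup_le h.le aS))
      le_sup_left fun k => n (le_sup_right.trans k)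
    obtain ⟨ρ, hρ, a, ha, rfl⟩ := (mem_sup_nr (h.le.trans (le_norm_inf hT (le_norm_cent hT)))).1 hs
    refine sR (mul_mem hρ (h.cv a ((mul_mem_cancel_left (le_normalizer hρ)).1 sn)
      (two_of_mem S.isPGroup' (aS ha)) fun g hg => ?_))
    exact (ha.2 _ ⟨h.le (conj_mem hg h.mem), mem_centralizer_singleton_iff.2 (hy g hg).symm⟩).symm
  exact this ⟨⟨h.ymem, mem_centralizer_singleton_iff.2 rfl⟩, fun τ hτ => mem_centralizer_singleton_iff.1 hτ.2⟩

theorem cl {R : Subgroup G} {y : G} {n : ℕ} (hR : IsPGroup 2 R) (ex : Ex G n) (hy : y ∈ R) (s : G) (hs : s ∈ 𝒩(R))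
    (ss : s * s ∈ R) (su : s * y ^ 2 ^ n ≠ y ^ 2 ^ n * s) (c1 : Commute y (s * y * s⁻¹)) : y * (s * s) ≠ s * s * y := by
  intro c2
  replace c2 : Commute y (s * s) := c2
  have c3 : Commute (s * y * s⁻¹) (s * s) := by
    change _ = _
    calc _ = s * (y * (s * s)) * s⁻¹ := by group
      _ = _ := by rw [c2.eq]; group
  have e : y * s * (y * s) = y * (s * y * s⁻¹) * (s * s) := by group
  have k1 := ex _ (two_of_sq hR (e ▸ mul_mem (mul_mem hy (conj_mem hs hy)) ss))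
  have k2 := ex _ (two_of_sq hR ss)
  have k3 := ex _ (two_of_mem hR hy)
  rw [pow_succ', pow_mul, pow_two] at k1 k2
  rw [e, (c2.mul_left c3).mul_pow, c1.mul_pow, k2, mul_one, conj_pow] at k1
  rw [pow_succ, pow_mul, pow_two, ← k1] at k3
  exact su (eq_mul_inv_iff_mul_eq.1 (mul_left_cancel k3)).symm

end AL0x

open AL0x in
theorem al0 : AL0.{u} := by
  intro G _ _ R u t S y n h hy
  have : Fact (Nat.Prime 2) := ⟨Nat.prime_two⟩
  have yR := ymem h hy
  have c : ∀ s ∈ 𝒩(R), s * s ∈ R → s * u ≠ u * s → y * (s * y * s⁻¹) = s * y * s⁻¹ * y → y * (s * s) ≠ s * s * y :=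
    fun s hs ss su => cl h.two h.ex yR s hs ss (h.pw ▸ su)
  obtain ⟨r, hr, ry⟩ : ∃ r ∈ R, r * y ≠ y * r := by
    by_contra! k
    exact c t h.tn h.tt h.tu (k _ (conj_mem h.tn yR)).symm (k _ h.tt).symm
  have nS : ¬ (S : Subgroup G) ≤ R := fun k => by
    obtain ⟨j, hj⟩ := two_of_sq h.two h.tt
    have := S.is_maximal' (isPGroup_sup' h.two (isPGroup_zpowers hj) (zpowers_le.2 h.tn)) (k.trans le_sup_left)
    exact h.tu (h.cen t (k (this ▸ mem_sup_right (mem_zpowers t))))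
  obtain ⟨s, hs, sn, sR, ss⟩ := exists_up S.isPGroup' h.le nS
  have br : Br R y := fun a ha b hb => h.br a (h.le ha) b (h.le hb)
  by_cases e : s * y = y * s
  · exact ⟨s, h.toCf, h.ex, yR, br, h.pw, sn, sR, ss, e, c⟩
  · refine ⟨s * r, h.toCf, h.ex, yR, br, h.pw, mul_mem sn (le_normalizer hr), fun k => sR ((mul_mem_cancel_right hr).1 k),
      ?_, h.br s hs r (h.le hr) e ry, c⟩
    rw [show s * r * (s * r) = s * r * s⁻¹ * (s * s) * r by group]
    exact mul_mem (mul_mem (conj_mem sn hr) ss) hr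

end CL.Sqf
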