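/-
Project SQF: case alpha, first half.
-/
import Cfsg.Agent.SQF.Defs

set_option autoImplicit false

namespace CL.Sqf

open Cfsg Subgroup CL.Even CL.Fgs

universe u

theorem al1 : AL1.{u} := by
  intro G _ _ R u t y t1 n h hw
  have hm : ∀ x, x ∈ centralizer ({y} : Set G) ↔ x * y = y * x := fun x => mem_centralizer_singleton_iff
  set C := centralizer ({y} : Set G) with hC
  have hbr : ∀ a ∈ R, ∀ b ∈ R, a ∉ C → b ∉ C → a * b ∈ C := fun a ha b hb ha' hb' =>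
    (hm _).2 (h.br a ha b hb (fun e => ha' ((hm _).2 e)) fun e => hb' ((hm _).2 e))
  have hRN : R ≤ 𝒩(R ⊓ C) := fun ρ hρ => mem_norm_of_cj_le (by
    rintro _ ⟨τ, hτ, rfl⟩
    refine ⟨conj_mem (le_normalizer hρ) hτ.1, ?_⟩
    change ρ * τ * ρ⁻¹ ∈ C
    by_cases hc : ρ ∈ C
    · exact mul_mem (mul_mem hc hτ.2) (inv_mem hc)
    · rw [mul_assoc]
      exact hbr ρ hρ _ (mul_mem hτ.1 (inv_mem hρ)) hc fun e => hc (C.inv_mem_iff.1 ((C.mul_mem_cancel_left hτ.2).1 e)))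
  have hsq : ∀ ρ : G, t * ρ * (t * ρ) = t * ρ * t⁻¹ * (t * t) * (t⁻¹ * t * ρ) := fun ρ => by group
  have hcl : ∀ ρ ∈ R, y * (t * ρ * y * (t * ρ)⁻¹) = t * ρ * y * (t * ρ)⁻¹ * y → t * ρ * (t * ρ) ∉ C := by
    intro ρ hρ h1 h2
    refine h.cl (t * ρ) (mul_mem h.tn (le_normalizer hρ)) ?_ (fun e => h.tu ?_) h1 ((hm _).1 h2).symm
    · rw [hsq, inv_mul_cancel, one_mul]
      exact mul_mem (mul_mem (conj_mem h.tn hρ) h.tt) hρ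
    · rw [mul_assoc, h.cen ρ hρ, ← mul_assoc, ← mul_assoc] at e
      exact mul_right_cancel e
  have htt : t * t ∉ C := by simpa using hcl 1 R.one_mem (by simpa using hw)
  have htN : t ∈ 𝒩(R ⊓ C) := mem_norm_of_cj_le (by
    rintro _ ⟨ρ, hρ, rfl⟩
    refine ⟨conj_mem h.tn hρ.1, ?_⟩
    change t * ρ * t⁻¹ ∈ C
    by_contra hc
    have e : t * ρ * y * (t * ρ)⁻¹ = t * y * t⁻¹ := by rw [mul_assoc t, (hm _).1 hρ.2]; group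
    refine hcl ρ hρ.1 (by rw [e]; exact hw) ?_
    rw [hsq, inv_mul_cancel, one_mul]
    exact mul_mem (hbr _ (conj_mem h.tn hρ.1) _ h.tt hc htt) hρ.2)
  have hb : ∀ ρ ∈ R, t * ρ * (t * ρ) ∉ C := fun ρ hρ => hcl ρ hρ (by
    have h1 := (hm _).1 (conj_mem' (mul_mem htN (hRN hρ)) (show y ∈ R ⊓ C from ⟨h.ymem, (hm _).2 rfl⟩)).2
    calc _ = t * ρ * ((t * ρ)⁻¹ * y * (t * ρ) * y) * (t * ρ)⁻¹ := by group
      _ = _ := by rw [h1]; group)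
  have h1C : t1 ∈ C := (hm _).2 h.ty
  have h1N : t1 ∈ 𝒩(R ⊓ C) := mem_norm_of_cj_le (by
    rintro _ ⟨ρ, hρ, rfl⟩
    exact ⟨conj_mem h.n1 hρ.1, C.mul_mem (C.mul_mem h1C hρ.2) (C.inv_mem h1C)⟩)
  obtain ⟨j, -, ρ, hρ, e⟩ := h.se t1 h.n1 t h.tn h.sq h.tt h.nm
    (by rw [h.pw]; exact (Commute.pow_right h.ty _).eq) h.tu
  have hg : (t1 * t) ^ j ∈ 𝒩(R ⊓ C) := pow_mem (mul_mem h1N htN) j
  generalize (t1 * t) ^ j = g at e hg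
  refine hb ρ⁻¹ (inv_mem hρ) ?_
  rw [show t * ρ⁻¹ * (t * ρ⁻¹) = g * (t1 * t1) * g⁻¹ by rw [e]; group]
  exact (conj_mem hg (show t1 * t1 ∈ R ⊓ C from ⟨h.sq, mul_mem h1C h1C⟩)).2

end CL.Sqf
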