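/-
Project SQF (S4132), job AL2.
-/
import Cfsg.Agent.SQF.Defs

set_option autoImplicit false

namespace CL.Sqf

open Cfsg Subgroup CL.Even CL.Fgs

universe u

namespace AL2x

variable {G : Type*} [Group G] {R : Subgroup G} {c p : G}

theorem pw (hc : ∀ ρ ∈ R, ρ * c = c * ρ) (cc : c * c = 1) (hp : p ∈ R)
    (h : ∀ ρ ∈ R, ρ * p * ρ⁻¹ = p ∨ ρ * p * ρ⁻¹ = p * c) {ρ : G} (hρ : ρ ∈ R) (m : ℕ) :
    (p * ρ) ^ m = p ^ m * ρ ^ m ∨ (p * ρ) ^ m = p ^ m * ρ ^ m * c := by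
  induction m with
  | zero => simp
  | succ m ih =>
    have k := hc _ (pow_mem hρ (m + 1))
    have k' := hc _ (mul_mem hp hρ)
    have e : p ^ m * ρ ^ m * (p * ρ) = p ^ m * (ρ ^ m * p * (ρ ^ m)⁻¹) * ρ ^ (m + 1) := by group
    have e1 : p ^ m * ρ ^ m * (p * ρ) = p ^ (m + 1) * ρ ^ (m + 1) ∨
        p ^ m * ρ ^ m * (p * ρ) = p ^ (m + 1) * ρ ^ (m + 1) * c := by
      rw [e]
      refine (h _ (pow_mem hρ m)).imp (fun a => ?_) fun a => ?_
      · rw [a, ← pow_succ]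
      · rw [a, ← mul_assoc, ← pow_succ, mul_assoc, ← k, mul_assoc]
    rw [pow_succ]
    rcases ih with a | a <;> rw [a]
    · exact e1
    · rw [mul_assoc _ c, ← k', ← mul_assoc]
      rcases e1 with b | b <;> rw [b]
      · exact .inr rfl
      · exact .inl (by rw [mul_assoc, cc, mul_one])

theorem two_sq (hR : IsPGroup 2 R) {x : G} (h : x * x ∈ R) : Two x :=
  let ⟨k, hk⟩ := two_of_mem hR h; ⟨k + 1, by rw [pow_succ', pow_mul, pow_two, hk]⟩

end AL2x

open AL2x in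
theorem al2 : AL2.{u} := by
  intro G _ _ R u t y t1 n h
  by_contra ne
  have hw : t * y * t⁻¹ ∈ R := conj_mem h.tn h.ymem
  generalize ew : t * y * t⁻¹ = w at ne hw
  obtain ⟨c, ec⟩ : ∃ c, w * y * w⁻¹ = y * c := ⟨y⁻¹ * (w * y * w⁻¹), by group⟩
  have ec' : y⁻¹ * w * y = c * w := by rw [show c = y⁻¹ * (w * y * w⁻¹) by rw [ec]; group]; group
  have nw : w⁻¹ * y ≠ y * w⁻¹ := fun k => ne (by
    calc y * w = w * (w⁻¹ * y) * w := by group
      _ = _ := by rw [k]; group)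
  have A : ∀ ρ ∈ R, ρ * y ≠ y * ρ → ρ * y * ρ⁻¹ = y * c := fun ρ hρ k => by
    have := h.br _ (inv_mem hw) _ hρ nw k
    calc _ = w * (w⁻¹ * ρ * y) * ρ⁻¹ := by group
      _ = _ := by rw [this, ← ec]; group
  have A' : ∀ ρ ∈ R, ρ * y * ρ⁻¹ = y ∨ ρ * y * ρ⁻¹ = y * c := fun ρ hρ =>
    (em _).imp mul_inv_eq_iff_eq_mul.2 (A ρ hρ)
  have B : ∀ ρ ∈ R, ρ * w * ρ⁻¹ = w ∨ ρ * w * ρ⁻¹ = w * (t * c * t⁻¹) := fun ρ hρ => by
    have e : ρ * w * ρ⁻¹ = t * (t⁻¹ * ρ * t * y * (t⁻¹ * ρ * t)⁻¹) * t⁻¹ := by rw [← ew]; group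
    refine (A' _ (conj_mem' h.tn hρ)).imp (fun a => ?_) fun a => ?_
    · rw [e, a, ew]
    · rw [e, a, ← ew]; group
  have n1 : y⁻¹ * w * y ≠ w := fun k => ne (by
    calc y * w = y * (y⁻¹ * w * y) := by rw [k]
      _ = _ := by group)
  have e1 : c * w = w * (t * c * t⁻¹) := by
    have := (B _ (inv_mem h.ymem)).resolve_left (by rwa [inv_inv])
    rwa [inv_inv, ec'] at this
  have cw : w * c = c * w := by
    have e : w * y⁻¹ * w * (w * y⁻¹)⁻¹ = w * (y⁻¹ * w * y) * w⁻¹ := by group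
    rcases B _ (mul_mem hw (inv_mem h.ymem)) with a | a
    · rw [e, mul_inv_eq_iff_eq_mul, mul_right_inj] at a
      exact absurd a n1
    · rw [e, ec', ← e1] at a
      have : w * c * (w * w⁻¹) = c * w := by rw [← a]; group
      simpa using this
  have c1 : ∀ ρ ∈ R, ρ * y = y * ρ → ρ * c = c * ρ := fun ρ hρ k => by
    have := A _ (mul_mem hρ hw) fun a => ne (by
      rw [← mul_assoc, ← k, mul_assoc, mul_assoc, mul_right_inj] at a
      exact a.symm)
    rw [show ρ * w * y * (ρ * w)⁻¹ = ρ * (w * y * w⁻¹) * ρ⁻¹ by group, ec, ← mul_assoc, k, mul_assoc, mul_assoc,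
      mul_right_inj, ← mul_assoc, mul_inv_eq_iff_eq_mul] at this
    exact this
  have hc : ∀ ρ ∈ R, ρ * c = c * ρ := fun ρ hρ => by
    by_cases k : ρ * y = y * ρ
    · exact c1 ρ hρ k
    · have := c1 _ (mul_mem (inv_mem hw) hρ) (h.br _ (inv_mem hw) _ hρ nw k)
      calc ρ * c = w * (w⁻¹ * ρ * c) := by group
        _ = w * c * (w⁻¹ * ρ) := by rw [this]; group
        _ = _ := by rw [cw]; group
  have tc : t * c * t⁻¹ = c := by rw [← cw, mul_right_inj] at e1; exact e1.symm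
  rw [tc] at B
  have cc : c * c = 1 := by
    have a := h.br _ hw _ hw (Ne.symm ne) (Ne.symm ne)
    have b : w * w * y * (w * w)⁻¹ = y * (c * c) := by
      calc _ = w * (w * y * w⁻¹) * w⁻¹ := by group
        _ = w * y * w⁻¹ * (w * c * w⁻¹) := by rw [conj_mul, ec]
        _ = _ := by rw [ec, cw]; group
    rw [a, mul_inv_cancel_right] at b
    exact (left_eq_mul.1 b)
  have uu : u * u = 1 := by rw [h.pw, ← pow_two, ← pow_mul, ← pow_succ]; exact h.ex y (two_of_mem h.two h.ymem)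
  have tu : t * u * t⁻¹ = u * c := by
    have e : y * t * (y * t) = y * (w * (t * t)) := by rw [← ew]; group
    have a := h.ex _ (two_sq h.two (e ▸ mul_mem h.ymem (mul_mem hw h.tt)))
    have b := h.ex _ (two_sq h.two h.tt)
    rw [pow_succ', pow_mul, pow_two] at a b
    have wn : w ^ 2 ^ n = t * u * t⁻¹ := by rw [← ew, conj_pow, h.pw]
    have d1 := pw hc cc h.ymem A' (mul_mem hw h.tt) (2 ^ n)
    have d2 := pw hc cc hw B h.tt (2 ^ n)
    rw [b, mul_one, wn] at d2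
    rw [← e, a, ← h.pw] at d1
    have z : ∀ {x}, 1 = u * x → x = u := fun k => by rw [← uu, mul_right_inj] at k; exact k.symm
    have z' : ∀ {x}, x * c = u → x = u * c := fun k => by rw [← k, mul_assoc, cc, mul_one]
    have nu : t * u * t⁻¹ ≠ u := fun k => h.tu (mul_inv_eq_iff_eq_mul.1 k)
    rcases d1 with d1 | d1 <;> rcases d2 with d2 | d2 <;> rw [d2] at d1
    · exact absurd (z d1) nu
    · exact z' (z d1)
    · exact z' (z (mul_assoc u _ _ ▸ d1))
    · rw [mul_assoc, mul_assoc _ c, cc, mul_one] at d1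
      exact absurd (z d1) nu
  have t1u : t1 * u = u * t1 := by rw [h.pw]; exact (Commute.pow_right h.ty _).eq
  have t1c : t1 * c * t1⁻¹ = c := by
    have ty : t1 * y * t1⁻¹ = y := mul_inv_eq_iff_eq_mul.2 h.ty
    have := A _ (conj_mem h.n1 hw) fun a => ne (by
      rw [← ty, conj_mul, conj_mul, mul_left_inj, mul_right_inj] at a
      exact a.symm)
    conv_lhs at this => rw [← ty]
    rw [show t1 * w * t1⁻¹ * (t1 * y * t1⁻¹) * (t1 * w * t1⁻¹)⁻¹ = t1 * (w * y * w⁻¹) * t1⁻¹ by group, ec, ← conj_mul, ty,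
      mul_right_inj] at this
    exact this
  obtain ⟨j, hj, -⟩ := h.se t1 h.n1 t h.tn h.sq h.tt h.nm t1u h.tu
  have g1 : t1 * t * u * (t1 * t)⁻¹ = u * c := by
    calc _ = t1 * (t * u * t⁻¹) * t1⁻¹ := by group
      _ = t1 * u * t1⁻¹ * (t1 * c * t1⁻¹) := by rw [tu]; group
      _ = _ := by rw [t1c, t1u]; group
  have g2 : t1 * t * c * (t1 * t)⁻¹ = c := by
    calc _ = t1 * (t * c * t⁻¹) * t1⁻¹ := by group
      _ = _ := by rw [tc, t1c]
  generalize t1 * t = g at hj g1 g2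
  have g3 : Commute (g ^ 2) u := by
    refine mul_inv_eq_iff_eq_mul.1 ?_
    calc _ = g * (g * u * g⁻¹) * g⁻¹ := by rw [pow_two]; group
      _ = g * u * g⁻¹ * (g * c * g⁻¹) := by rw [conj_mul, g1]
      _ = _ := by rw [g1, g2, mul_assoc, cc, mul_one]
  have g4 : Commute g u := by
    have a : Commute (g ^ (2 * j + 1)) u := h.cen _ hj
    have b := (g3.pow_left j).inv_left.mul_left a
    rwa [pow_succ g (2 * j), pow_mul, inv_mul_cancel_left] at b
  rw [g4.eq, mul_inv_cancel_right, left_eq_mul] at g1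
  rw [g1, mul_one, mul_inv_eq_iff_eq_mul] at ec
  exact ne ec.symm

end CL.Sqf
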