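/-
Project SQF (S4132): the configuration of case beta.
-/
import Cfsg.Agent.SQF.Defs

set_option autoImplicit false

namespace CL.Sqf

open Cfsg Subgroup CL.Even CL.Fgs

universe u

namespace BE0x

variable {G : Type u} [Group G] {R : Subgroup G} {a c k : G}

theorem cen_conj (hk : k ∈ 𝒩(R)) (h : ∀ ρ ∈ R, ρ * c = c * ρ) : ∀ ρ ∈ R, ρ * (k * c * k⁻¹) = k * c * k⁻¹ * ρ :=
  fun ρ hρ => calc ρ * (k * c * k⁻¹) = k * (k⁻¹ * ρ * k⁻¹⁻¹ * c) * k⁻¹ := by group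
    _ = _ := by rw [h _ (conj_mem (inv_mem hk) hρ)]; group

theorem tv_conj (h : Tv R a c) (hk : k ∈ 𝒩(R)) : Tv R (k * a * k⁻¹) (k * c * k⁻¹) where
  nr := mul_mem (mul_mem hk h.nr) (inv_mem hk)
  nm := fun e => h.nm (by simpa [mul_assoc] using conj_mem (inv_mem hk) e)
  sq := by rw [conj_mul]; exact conj_mem hk h.sq
  cm := conj_mem hk h.cm
  cc := by rw [conj_mul, h.cc, mul_one, mul_inv_cancel]
  cen := cen_conj hk h.cen
  ac := by rw [conj_mul, conj_mul, h.ac]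
  act := fun ρ hρ => by
    have e : k * a * k⁻¹ * ρ * (k * a * k⁻¹)⁻¹ = k * (a * (k⁻¹ * ρ * k⁻¹⁻¹) * a⁻¹) * k⁻¹ := by group
    refine (h.act _ (conj_mem (inv_mem hk) hρ)).imp (fun f => ?_) fun f => ?_ <;> rw [e, f] <;> group

end BE0x

open BE0x

theorem be0 : BE0.{u} := by
  rintro lt G _ _ R u t S y n h ⟨g, hg, hy⟩
  have uu : u * u = 1 := by rw [h.pw, ← pow_two, ← pow_mul, ← pow_succ, h.ex y (two_of_mem S.isPGroup' h.ymem)]
  obtain ⟨r, hr⟩ : ∃ r, r = g * u * g⁻¹ := ⟨_, rfl⟩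
  have rR : r ∈ R := hr ▸ conj_mem hg h.mem
  have rc : ∀ ρ ∈ R, ρ * r = r * ρ := hr ▸ cen_conj hg h.cen
  have rr : r * r = 1 := by rw [hr, conj_mul, uu, mul_one, mul_inv_cancel]
  rw [← hr] at hy
  let T : Subgroup G := (S : Subgroup G) ⊓ centralizer {y}
  have mT : ∀ {x}, x ∈ T ↔ x ∈ (S : Subgroup G) ∧ x * y = y * x := and_congr_right fun _ => mem_centralizer_singleton_iff
  have nT : ∀ s ∈ (S : Subgroup G), ∀ τ ∈ T, s * τ * s⁻¹ ∈ T := fun s hs τ hτ => by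
    by_cases e : s ∈ T
    · exact mul_mem (mul_mem e hτ) (inv_mem e)
    · have m := mul_mem (mT.1 hτ).1 (inv_mem hs)
      rw [mul_assoc]
      exact mT.2 ⟨mul_mem hs m, h.br s hs _ m (fun f => e (mT.2 ⟨hs, f⟩)) fun f =>
        e (inv_mem_iff.1 ((mul_mem_cancel_left hτ).1 (mT.2 ⟨m, f⟩)))⟩
  let A : Subgroup G := T ⊓ 𝒞(T)
  have nA : R ≤ 𝒩(A) := fun s hs => mem_norm_of_cj_le (by
    rintro _ ⟨a, ha, rfl⟩
    refine ⟨nT s (h.le hs) a ha.1, fun τ hτ => ?_⟩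
    change τ * (s * a * s⁻¹) = s * a * s⁻¹ * τ
    calc τ * (s * a * s⁻¹) = s * (s⁻¹ * τ * s⁻¹⁻¹ * a) * s⁻¹ := by group
      _ = _ := by rw [ha.2 _ (nT _ (inv_mem (h.le hs)) τ hτ)]; group)
  have yA : y ∈ A := ⟨mT.2 ⟨h.ymem, rfl⟩, fun τ hτ => (mT.1 hτ).2⟩
  obtain ⟨s, hs, s1, s2, s3⟩ := exists_up (R := R) (D := R ⊔ A)
    (S.isPGroup'.to_le (sup_le h.le (inf_le_left.trans inf_le_left))) le_sup_left
    fun e => hy (rc y (e (mem_sup_right yA)))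
  obtain ⟨ρ, hρ, a, ha, rfl⟩ := (mem_sup_nr nA).1 hs
  have aN : a ∈ 𝒩(R) := (mul_mem_cancel_left (le_normalizer hρ)).1 s1
  have aR : a ∉ R := fun e => s2 (mul_mem hρ e)
  have aa : a * a ∈ R := by
    rw [show ρ * a * (ρ * a) = ρ * (a * ρ * a⁻¹) * (a * a) by group] at s3
    exact (mul_mem_cancel_left (mul_mem hρ (conj_mem aN hρ))).1 s3
  have au := h.zs a ha.1.1
  have r'R := conj_mem aN rR
  have r'c := cen_conj aN rc
  have r'r : a * r * a⁻¹ * (a * r * a⁻¹) = 1 := by rw [conj_mul, rr, mul_one, mul_inv_cancel]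
  have ta : Tv R a (r * (a * r * a⁻¹)) :=
    { nr := aN
      nm := aR
      sq := aa
      cm := mul_mem rR r'R
      cc := by rw [mul_assoc, ← mul_assoc (a * r * a⁻¹), rc _ r'R, mul_assoc r, r'r, mul_one, rr]
      cen := fun x hx => by rw [← mul_assoc x, rc x hx, mul_assoc r x, r'c x hx, mul_assoc r]
      ac := calc a * (r * (a * r * a⁻¹)) = a * r * a⁻¹ * (a * a * r) * a⁻¹ := by group
        _ = a * r * a⁻¹ * r * a := by rw [rc _ aa]; group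
        _ = _ := by rw [rc _ r'R]
      act := fun x hx => by
        by_cases e : x * y = y * x
        · exact .inl (mul_inv_eq_iff_eq_mul.2 (ha.2 x (mT.2 ⟨h.le hx, e⟩)).symm)
        · have f := ha.2 _ (mT.2 ⟨mul_mem (h.le hx) (h.le rR), h.br x (h.le hx) r (h.le rR) e (Ne.symm hy)⟩)
          right
          calc a * x * a⁻¹ = a * x * a⁻¹ * (a * r * a⁻¹ * (a * r * a⁻¹)) := by rw [r'r, mul_one]
            _ = a * (x * r) * a⁻¹ * (a * r * a⁻¹) := by group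
            _ = _ := by rw [← f]; group }
  obtain ⟨j, -, ρ', hρ', e⟩ := h.se a aN t h.tn aa h.tt aR au h.tu
  have tb := tv_conj ta (pow_mem (mul_mem aN h.tn) j)
  generalize (a * t) ^ j * a * ((a * t) ^ j)⁻¹ = b at e tb
  generalize (a * t) ^ j * (r * (a * r * a⁻¹)) * ((a * t) ^ j)⁻¹ = d at tb
  generalize r * (a * r * a⁻¹) = c at ta
  have bu : b * u ≠ u * b := fun f => h.tu (by rw [e, mul_assoc, h.cen _ hρ', ← mul_assoc, f, mul_assoc])
  obtain ⟨h1, h2⟩ := lt G R u t a b c d h.toCf ta tb au bu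
  exact ⟨a, b, c, d, h.toCf, ta, tb, au, bu, (ta.act d tb.cm).resolve_left fun f => h1 (mul_inv_eq_iff_eq_mul.1 f),
    (tb.act c ta.cm).resolve_left fun f => h2 (mul_inv_eq_iff_eq_mul.1 f), fun f => h2 (by rw [f, mul_one, one_mul]),
    fun f => h1 (by rw [f, mul_one, one_mul])⟩

end CL.Sqf
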