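/-
Project SQF (S4132): the centraliser of `d` modulo `R₀` in a 2-group.
-/
import Cfsg.Agent.SQF.Defs
import Cfsg.Agent.Fgs.CondFT

set_option autoImplicit false

namespace CL.Sqf

open Cfsg Subgroup CL.Even CL.Fgs

universe u

namespace BE2x

variable {G : Type*} [Group G]

/-- conjugation -/
def κ (g x : G) : G := g * x * g⁻¹

theorem κ_mul (g x y : G) : κ g (x * y) = κ g x * κ g y := by simp only [κ]; group
theorem κ_κ (g h x : G) : κ (g * h) x = κ g (κ h x) := by simp only [κ]; group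
theorem κ_fix {g x : G} : κ g x = x ↔ g * x = x * g := mul_inv_eq_iff_eq_mul
theorem κ_cj (g a x : G) : κ (κ g a) (κ g x) = κ g (κ a x) := by simp only [κ]; group

variable {R : Subgroup G} {u t a b c d : G}

theorem mem0 {ρ : G} : ρ ∈ R ⊓ cent(a) ⊓ cent(b) ↔ ρ ∈ R ∧ κ a ρ = ρ ∧ κ b ρ = ρ := by
  rw [mem_inf, mem_inf, mem_cent', mem_cent', κ_fix, κ_fix, and_assoc]; rfl

theorem sw {x ρ : G} (xx : x * x = 1) (e : ρ * x = x * ρ) : x * (ρ * x) = ρ := by rw [e, ← mul_assoc, xx, one_mul]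

theorem dec (h : Be R u t a b c d) {ρ : G} (hρ : ρ ∈ R) : ∃ σ ∈ R ⊓ cent(a) ⊓ cent(b),
    ρ = σ ∨ ρ = c * σ ∨ ρ = d * σ ∨ ρ = c * d * σ := by
  have ac : κ a c = c := κ_fix.2 h.ta.ac
  have bd : κ b d = d := κ_fix.2 h.tb.ac
  have ad : κ a d = d * c := h.ad
  have bc : κ b c = c * d := h.bc
  have cd := h.tb.cen c h.ta.cm
  have e1 := sw h.ta.cc (h.ta.cen ρ hρ)
  have e2 := sw h.tb.cc (h.tb.cen ρ hρ)
  rcases h.ta.act ρ hρ with p | p <;> rcases h.tb.act ρ hρ with q | q <;> change κ a ρ = _ at p <;>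
    change κ b ρ = _ at q
  · exact ⟨ρ, mem0.2 ⟨hρ, p, q⟩, .inl rfl⟩
  · refine ⟨c * ρ, mem0.2 ⟨mul_mem h.ta.cm hρ, by rw [κ_mul, ac, p], by rw [κ_mul, bc, q, mul_assoc, e2]⟩,
      .inr (.inl ?_)⟩
    rw [← mul_assoc, h.ta.cc, one_mul]
  · refine ⟨d * ρ, mem0.2 ⟨mul_mem h.tb.cm hρ, by rw [κ_mul, ad, p, mul_assoc, e1], by rw [κ_mul, bd, q]⟩,
      .inr (.inr (.inl ?_))⟩
    rw [← mul_assoc, h.tb.cc, one_mul]
  · refine ⟨d * (c * ρ), mem0.2 ⟨mul_mem h.tb.cm (mul_mem h.ta.cm hρ), ?_, ?_⟩, .inr (.inr (.inr ?_))⟩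
    · rw [κ_mul, κ_mul, ad, ac, p, e1, mul_assoc]
    · rw [κ_mul, κ_mul, bd, bc, q, mul_assoc c, e2]
    · rw [mul_assoc, ← mul_assoc d, h.tb.cc, one_mul, ← mul_assoc, h.ta.cc, one_mul]

/-- an element which moves one of the two involutions by `e` induces a transvection -/
theorem tv (h : Cf R u t) {R0 : Subgroup G} {x y s e : G} (le : R0 ≤ R) (yc : ∀ ρ ∈ R, ρ * y = y * ρ)
    (dc : ∀ ρ ∈ R, ∃ σ ∈ R0, ρ = σ ∨ ρ = x * σ ∨ ρ = y * σ ∨ ρ = x * y * σ)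
    (sn : s ∈ 𝒩(R)) (s2 : Two s) (s0 : ∀ σ ∈ R0, κ s σ = σ) (sx : κ s x = x) (sy : κ s y = y * e) (e0 : e ∈ R0)
    (ee : e * e = 1) (ec : ∀ ρ ∈ R, ρ * e = e * ρ) (e1 : e ≠ 1) : Tv R s e := by
  have act : ∀ ρ ∈ R, κ s ρ = ρ ∨ κ s ρ = ρ * e := fun ρ hρ => by
    obtain ⟨σ, hσ, rfl | rfl | rfl | rfl⟩ := dc ρ hρ
    · exact .inl (s0 _ hσ)
    · exact .inl (by rw [κ_mul, sx, s0 _ hσ])
    · exact .inr (by rw [κ_mul, sy, s0 _ hσ, mul_assoc, ← ec _ (le hσ), mul_assoc])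
    · exact .inr (by rw [κ_mul, κ_mul, sx, sy, s0 _ hσ, mul_assoc, mul_assoc, ← ec _ (le hσ)]; group)
  refine ⟨sn, fun hs => e1 ?_, h.cv _ (mul_mem sn sn) ?_ fun g hg => κ_fix.1 ?_, le e0, ee, ec, κ_fix.1 (s0 e e0), act⟩
  · rw [κ_fix.2 (yc s hs)] at sy
    exact mul_eq_left.1 sy.symm
  · obtain ⟨k, hk⟩ := s2
    exact ⟨k, by rw [← pow_two, ← pow_mul, mul_comm, pow_mul, hk, one_pow]⟩
  · rcases act _ (conj_mem hg h.mem) with p | p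
    · rw [κ_κ, p, p]
    · rw [κ_κ, p, κ_mul, p, s0 e e0, mul_assoc, ee, mul_one]

theorem κ_pow {s x : G} (h : κ s x = x) (k : ℕ) : κ (s ^ k) x = x :=
  κ_fix.2 (Commute.pow_left (κ_fix.1 h) k)

theorem κ_odd {s x e : G} (h : κ s x = x * e) (he : κ s e = e) (ee : e * e = 1) {k : ℕ} (hk : Odd k) :
    κ (s ^ k) x = x * e := by
  obtain ⟨j, rfl⟩ := hk
  have : κ (s ^ 2) x = x := by rw [pow_two, κ_κ, h, κ_mul, h, he, mul_assoc, ee, mul_one]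
  rw [pow_succ', κ_κ, pow_mul, κ_pow this, h]

/-- a conjugate of a central involution -/
theorem cen_cj {x g ρ : G} (hg : g ∈ 𝒩(R)) (xx : x * x = 1) (xc : ∀ σ ∈ R, σ * x = x * σ) (hρ : ρ ∈ R)
    (e : κ g x = x * ρ) : ρ * ρ = 1 ∧ ∀ σ ∈ R, σ * ρ = ρ * σ := by
  have c1 : ∀ σ ∈ R, σ * (x * ρ) = x * ρ * σ := fun σ hσ => by
    have := xc _ (conj_mem' hg hσ)
    rw [← e, κ]
    calc _ = g * (g⁻¹ * σ * g * x) * g⁻¹ := by group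
      _ = _ := by rw [this]; group
  have c2 : x * ρ * (x * ρ) = 1 := by rw [← e, ← κ_mul, xx, κ, mul_one, mul_inv_cancel]
  refine ⟨?_, fun σ hσ => mul_left_cancel (a := x) ?_⟩
  · rwa [mul_assoc, ← mul_assoc ρ, xc ρ hρ, ← mul_assoc, ← mul_assoc, xx, one_mul] at c2
  · rw [← mul_assoc, ← xc σ hσ, mul_assoc, c1 σ hσ, mul_assoc]

end BE2x

open BE2x in
theorem be2 : BE2.{u} := by
  intro lt G _ _ R u t a b c d h P hP hRP haP hN g0 hg0 hg0'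
  set R0 := R ⊓ cent(a) ⊓ cent(b) with hR0
  have le0 : R0 ≤ R := fun x hx => hx.1.1
  have ac : κ a c = c := κ_fix.2 h.ta.ac
  have bd : κ b d = d := κ_fix.2 h.tb.ac
  have ad : κ a d = d * c := h.ad
  have bc : κ b c = c * d := h.bc
  have au : κ a u = u := κ_fix.2 h.au
  have bu : κ b u = u * d := (h.tb.act u h.mem).resolve_left fun e => h.bu (κ_fix.1 e)
  have cd := h.tb.cen c h.ta.cm
  have f0 : c * u ∈ R0 := mem0.2 ⟨mul_mem h.ta.cm h.mem, by rw [κ_mul, ac, au], by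
    rw [κ_mul, bc, bu, mul_assoc, sw h.tb.cc (h.tb.cen u h.mem)]⟩
  let P1 : Subgroup G :=
    { carrier := {g | g ∈ P ∧ g * d * g⁻¹ * d⁻¹ ∈ R0}
      one_mem' := ⟨one_mem _, by simp⟩
      mul_mem' := fun {x y} hx hy => ⟨mul_mem hx.1 hy.1, by
        have := mul_mem (conj_mem (hN hx.1) hy.2) hx.2
        convert this using 1; group⟩
      inv_mem' := fun {x} hx => ⟨inv_mem hx.1, by
        have := inv_mem (conj_mem' (hN hx.1) hx.2)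
        convert this using 1; group⟩ }
  by_contra hg0R
  obtain ⟨g, hg1, gN, gR, -⟩ := exists_up (R := R) (D := P1) (hP.to_le fun x hx => hx.1)
    (fun ρ hρ => ⟨hRP hρ, by rw [h.tb.cen ρ hρ]; simp⟩) fun k => hg0R (k ⟨hg0, hg0'⟩)
  have gN0 := hN hg1.1
  have hD : IsPGroup 2 (P ⊓ 𝒩(R) : Subgroup G) := hP.to_le inf_le_left
  have hRD : R ≤ P ⊓ 𝒩(R) := le_inf hRP le_normalizer
  have aD : a ∈ P ⊓ 𝒩(R) := ⟨haP, h.ta.nr⟩
  have gD : g ∈ P ⊓ 𝒩(R) := ⟨hg1.1, gN⟩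
  have gu : κ g u = u := κ_fix.2
    (((h.dich _ hD hRD).resolve_right fun k => h.ta.nm (k a aD h.au)) g gD)
  -- the two error terms
  obtain ⟨ρ1, r1, gc⟩ : ∃ ρ ∈ R0, κ g c = c * ρ := by
    refine ⟨c * u * (κ g (c * u))⁻¹, mul_mem f0 (inv_mem (conj_mem gN0 f0)), ?_⟩
    have c2 : κ g c * κ g c = 1 := by rw [← κ_mul, h.ta.cc, κ, mul_one, mul_inv_cancel]
    rw [κ_mul, gu, mul_inv_rev, inv_eq_of_mul_eq_one_right c2]
    calc _ = c * c * κ g c := by rw [h.ta.cc, one_mul]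
      _ = _ := by group
  obtain ⟨ρ2, r2, gd⟩ : ∃ ρ ∈ R0, κ g d = d * ρ :=
    ⟨_, hg1.2, by rw [← h.tb.cen _ (le0 hg1.2), inv_mul_cancel_right]; rfl⟩
  obtain ⟨q1, z1⟩ := cen_cj gN h.ta.cc h.ta.cen (le0 r1) gc
  obtain ⟨q2, z2⟩ := cen_cj gN h.tb.cc h.tb.cen (le0 r2) gd
  have cj0 : ∀ x : G, (∀ σ ∈ R0, κ x σ = σ) → ∀ σ ∈ R0, κ (κ g x) σ = σ := fun x hx σ hσ => by
    have e : σ = κ g (g⁻¹ * σ * g) := by simp only [κ]; group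
    rw [e, κ_cj, hx _ (conj_mem' gN0 hσ)]
  have a0 : ∀ σ ∈ R0, κ a σ = σ := fun σ hσ => (mem0.1 hσ).2.1
  have b0 : ∀ σ ∈ R0, κ b σ = σ := fun σ hσ => (mem0.1 hσ).2.2
  have cj1 : ∀ {x y ρ : G}, (∀ σ ∈ R0, κ x σ = σ) → κ x y = y → ρ ∈ R0 → κ g y = y * ρ → κ (κ g x) y = y :=
    fun {x y ρ} hx hy hρ e => by
      have k := κ_cj g x y
      rw [hy, e, κ_mul, cj0 x hx ρ hρ] at k
      exact mul_right_cancel k
  have cj2 : ∀ {x y z ρ ρ' : G}, (∀ σ ∈ R0, κ x σ = σ) → κ x y = y * z → ρ ∈ R0 → ρ' ∈ R0 → z ∈ R →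
      (∀ σ ∈ R, σ * ρ = ρ * σ) → κ g y = y * ρ → κ g z = z * ρ' → κ (κ g x) y = y * z * ρ' :=
    fun {x y z ρ ρ'} hx hy hρ hρ' hz zz e e' => by
      have k := κ_cj g x y
      rw [hy, κ_mul, e, e', κ_mul, cj0 x hx ρ hρ, mul_assoc, ← zz _ (mul_mem hz (le0 hρ')), ← mul_assoc] at k
      rw [mul_right_cancel k, mul_assoc]
  have e1 : ρ1 = 1 := by
    by_contra e1
    have sD : a * κ g a ∈ P ⊓ 𝒩(R) := mul_mem aD (mul_mem (mul_mem gD aD) (inv_mem gD))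
    have T : Tv R (a * κ g a) ρ1 := tv h.toCf le0 h.tb.cen (fun ρ hρ => dec h hρ) sD.2 (two_of_mem hD sD)
      (fun σ hσ => by rw [κ_κ, cj0 a a0 σ hσ, a0 σ hσ]) (by rw [κ_κ, cj1 a0 ac r1 gc, ac])
      (by rw [κ_κ, cj2 a0 ad r2 r1 h.ta.cm z2 gd gc, κ_mul, κ_mul, ad, ac, a0 _ r1, mul_assoc d, h.ta.cc, mul_one])
      r1 q1 z1 e1
    refine (lt G R u t _ b ρ1 d h.toCf T h.tb (κ_fix.1 ?_) h.bu).2 (κ_fix.1 (b0 _ r1))
    have k := κ_cj g a u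
    rw [au, gu] at k
    rw [κ_κ, k, au]
  have e2 : ρ2 = 1 := by
    by_contra e2
    have sN : b * κ g b ∈ 𝒩(R) := mul_mem h.tb.nr (mul_mem (mul_mem gN h.tb.nr) (inv_mem gN))
    obtain ⟨m, k, hm, hk⟩ := exists_odd_pow_two_element (b * κ g b)
    have s0 : ∀ σ ∈ R0, κ (b * κ g b) σ = σ := fun σ hσ => by rw [κ_κ, cj0 b b0 σ hσ, b0 σ hσ]
    have sc : κ ((b * κ g b) ^ m) c = c * ρ2 := κ_odd
      (by rw [κ_κ, cj2 b0 bc r1 r2 h.tb.cm z1 gc gd, κ_mul, κ_mul, bc, bd, b0 _ r2, mul_assoc c, h.tb.cc, mul_one])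
      (s0 _ r2) q2 hm
    have T : Tv R ((b * κ g b) ^ m) ρ2 := tv (x := d) h.toCf le0 h.ta.cen
      (fun ρ hρ => let ⟨σ, p, q⟩ := dec h hρ; ⟨σ, p, by rw [← cd]; tauto⟩) (pow_mem sN m) ⟨k, hk⟩
      (fun σ hσ => κ_pow (s0 σ hσ) m) (κ_pow (by rw [κ_κ, cj1 b0 bd r2 gd, bd]) m) sc r2 q2 z2 e2
    refine (lt G R u t a _ c ρ2 h.toCf h.ta T h.au fun e => e2 ?_).1 (κ_fix.1 (a0 _ r2))
    have k := κ_pow (s0 _ f0) m
    rw [κ_mul, sc, κ_fix.2 e] at k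
    exact mul_eq_left.1 (mul_right_cancel k)
  rw [e1, mul_one] at gc
  rw [e2, mul_one] at gd
  have u2 : a * b * u * (a * b)⁻¹ = u * (d * c) := by
    change κ (a * b) u = _
    rw [κ_κ, bu, κ_mul, au, ad]
  rcases h.dc (a * b) (mul_mem h.ta.nr h.tb.nr) _ hD hRD with k | k
  · have k1 := κ_fix.2 (k a aD)
    rw [u2, κ_mul, κ_mul, au, ad, ac] at k1
    exact h.c1 (mul_eq_left.1 (mul_left_cancel k1))
  · exact gR (k g gD (κ_fix.1 (by rw [u2, κ_mul, κ_mul, gu, gd, gc])))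

end CL.Sqf
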