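/-
Project SQF: elements of breadth at most one.
-/
import Cfsg.Agent.SQF.Defs
import Cfsg.Agent.Grp.SylowIn

set_option autoImplicit false

namespace CL.Sqf

open Cfsg Subgroup CL.Even CL.Fgs CL.Grp

universe u

namespace BR1x

variable {G : Type*} [Group G]

theorem not_four {x : G} {T : Subgroup G} (h : ¬ 4 ∣ cs(x)) (hT : IsSylowIn 2 T cent(x)) : ¬ 4 ∣ T.index := by
  rw [← relIndex_mul_index hT.le]
  intro h4
  refine h (Nat.Coprime.dvd_of_dvd_mul_left ?_ h4)
  exact ((Nat.Prime.coprime_iff_not_dvd Nat.prime_two).2 hT.not_dvd).pow_left 2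

theorem central {S : Subgroup G} (hS : IsPGroup 2 S) {n : ℕ} (ex : Ex G n) {y : G} (hy : y ∈ S) (br : Br S y)
    {s : G} (hs : s ∈ S) : s * y ^ 2 ^ n = y ^ 2 ^ n * s := by
  by_cases h : s * y = y * s
  · exact (Commute.pow_right h _).eq
  have h1 : Commute (s * s) y := br s hs s hs h h
  have h2 : Commute (s * y * s⁻¹) y := by
    have := br s hs (y * s⁻¹) (mul_mem hy (inv_mem hs)) h fun k => h (by
      rw [mul_assoc] at k
      have k2 : Commute s⁻¹ y := mul_left_cancel k
      exact (Commute.inv_left_iff.1 k2).eq)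
    rwa [← mul_assoc s y] at this
  have h3 : Commute (s * s) (s * y * s⁻¹) := by
    change _ = _
    calc s * s * (s * y * s⁻¹) = s * (s * s * y) * s⁻¹ := by group
      _ = _ := by rw [h1.eq]; group
  have e1 := ex _ (two_of_mem hS (mul_mem hy hs))
  have e2 := ex _ (two_of_mem hS hs)
  have e3 := ex _ (two_of_mem hS hy)
  rw [pow_succ', pow_mul, pow_two] at e1 e2
  rw [pow_succ, pow_mul, pow_two] at e3
  rw [show y * s * (y * s) = y * (s * y * s⁻¹) * (s * s) by group,
    (h1.symm.mul_left h3.symm).mul_pow, e2, mul_one, h2.symm.mul_pow, conj_pow] at e1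
  rw [← mul_inv_eq_iff_eq_mul]
  exact mul_left_cancel (e1.trans e3.symm)

end BR1x

theorem br1 : BR1.{u} := by
  intro G _ _ n h4 ex y hy
  obtain ⟨T, hT, hyT⟩ := exists_isSylowIn_ge (H := cent(y)) (isPGroup_zpowers hy.choose_spec)
    (zpowers_le.2 (mem_centralizer_singleton_iff.2 rfl))
  obtain ⟨S, hS⟩ := hT.exists_sylow_inf_eq
  have k := BR1x.not_four (h4 y hy.prim) hT
  have hyS : y ∈ (S : Subgroup G) := (hS.ge (hyT (mem_zpowers y))).1
  have br : Br (S : Subgroup G) y := by
    obtain ⟨i, hi⟩ := S.isPGroup'.index (cent(y).subgroupOf S)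
    have k2 : 2 ^ i ∣ T.index := by
      rw [← hS, ← relIndex_mul_index (inf_le_left (b := cent(y))), inf_relIndex_left, ← hi]
      exact Dvd.intro _ rfl
    intro a ha b hb h1 h2
    rcases i with _ | _ | i
    · rw [pow_zero, index_eq_one, subgroupOf_eq_top] at hi
      exact absurd (mem_centralizer_singleton_iff.1 (hi ha)) h1
    · have := (mul_mem_iff_of_index_two hi (a := ⟨a, ha⟩) (b := ⟨b, hb⟩)).2
        (iff_of_false (fun m => h1 (mem_centralizer_singleton_iff.1 m))
          fun m => h2 (mem_centralizer_singleton_iff.1 m))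
      exact mem_centralizer_singleton_iff.1 this
    · exact absurd ((Dvd.intro_left (2 ^ i) (by ring)).trans k2) k
  exact ⟨S, hyS, br, fun s hs => BR1x.central S.isPGroup' ex hyS br hs⟩

theorem br3 : BR3.{u} := by
  intro G _ _ h4 x Q hx hQ hc hd
  obtain ⟨T, hT, hQT⟩ := exists_isSylowIn_ge (H := cent(x)) hQ fun ρ h =>
    mem_centralizer_singleton_iff.2 (hc ρ h)
  obtain ⟨s, h1, h2, h3, h5⟩ := exists_up hT.isPGroup hQT fun h => by
    rw [← le_antisymm hQT h] at hT
    rw [← card_mul_index Q, mul_comm 4] at hd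
    exact BR1x.not_four (h4 x hx) hT (Nat.dvd_of_mul_dvd_mul_left Nat.card_pos hd)
  exact ⟨s, h2, h3, h5, mem_centralizer_singleton_iff.1 (hT.le h1)⟩

end CL.Sqf
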