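/-
Project SQF: `G/F(G)` is abelian of square-free exponent for supersolvable `G` with `SQ G`.
-/
import Cfsg.Agent.SQF.Defs
import Cfsg.Agent.Grp.Supersolv
import Cfsg.Agent.Grp.Fitting

set_option autoImplicit false

namespace CL.Sqf

open Cfsg Subgroup CL.Even CL.Fgs

universe u

namespace FAx

/-- the normal subgroup generated by the `e`-th powers and the commutators -/
def M (e : ℕ) (X : Type*) [Group X] : Subgroup X :=
  normalClosure (Set.range fun g : X => g ^ e) ⊔ commutator X

instance M_normal (e : ℕ) (X : Type*) [Group X] : (M e X).Normal := by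
  unfold M; infer_instance

theorem M_le {e : ℕ} {X : Type*} [Group X] {K : Subgroup X} [K.Normal] (h1 : ∀ g : X, g ^ e ∈ K)
    (h2 : commutator X ≤ K) : M e X ≤ K :=
  sup_le (normalClosure_le_normal (by rintro _ ⟨g, rfl⟩; exact h1 g)) h2

theorem pow_mem_M (e : ℕ) {X : Type*} [Group X] (g : X) : g ^ e ∈ M e X :=
  (le_sup_left : _ ≤ M e X) (subset_normalClosure ⟨g, rfl⟩)

theorem comm_le_M (e : ℕ) (X : Type*) [Group X] : commutator X ≤ M e X := le_sup_right

theorem M_le_comap (e : ℕ) {X Y : Type*} [Group X] [Group Y] (f : X →* Y) : M e X ≤ (M e Y).comap f := by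
  refine M_le (fun g => ?_) ?_
  · rw [mem_comap, map_pow]; exact pow_mem_M e _
  · rw [← map_le_iff_le_comap, map_commutator_eq]
    exact (commutator_mono le_top le_top).trans (comm_le_M e Y)

theorem nil (e : ℕ) (X : Type u) [Group X] [Finite X] (h : IsSupersolvable X) :
    SQ X → (∀ k : ℕ, Squarefree k → k ∣ Nat.card X → k ∣ e) → Group.IsNilpotent (M e X) := by
  refine CL.Grp.IsSupersolvable.induction
    (P := fun X _ _ => SQ X → (∀ k : ℕ, Squarefree k → k ∣ Nat.card X → k ∣ e) →
      Group.IsNilpotent (M e X))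
    (fun X _ _ _ _ _ => inferInstance) (fun X _ _ N _ _ hp ih hs hk => ?_) X h
  have := Fact.mk hp
  have hc : IsCyclic N := isCyclic_of_prime_card rfl
  have ih' : Group.IsNilpotent (M e (X ⧸ N)) :=
    ih (hs.map (QuotientGroup.mk'_surjective N))
      (fun k a b => hk k a (b.trans (card_quotient_dvd_card N)))
  obtain ⟨v, hv⟩ := hc.exists_generator
  have hov : orderOf (v : X) = Nat.card N := by
    rw [orderOf_coe]; exact orderOf_eq_card_of_forall_mem_zpowers hv
  have hce : centralizer (N : Set X) = cent((v : X)) := by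
    apply le_antisymm
    · exact centralizer_le (Set.singleton_subset_iff.2 v.2)
    · intro g hg n hn
      obtain ⟨i, hi⟩ := hv ⟨n, hn⟩
      have hi' : (v : X) ^ i = n := by simpa using congrArg Subtype.val hi
      rw [← hi']
      exact ((mem_cent'.1 hg).zpow_left i).eq
  have hsq : Squarefree (centralizer (N : Set X)).index := by
    rw [hce]; exact hs v ⟨_, 1, hp, by rw [hov, pow_one]⟩
  have hle : M e X ≤ centralizer (N : Set X) := by
    refine M_le (fun g => ?_) (CL.Grp.commutator_le_centralizer_of_isCyclic N)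
    obtain ⟨c, hc⟩ := hk _ hsq (index_dvd_card _)
    rw [hc, pow_mul]
    exact pow_mem (pow_index_mem _ g) c
  let f : M e X →* M e (X ⧸ N) :=
    ((QuotientGroup.mk' N).comp (M e X).subtype).codRestrict _
      (fun x => M_le_comap e (QuotientGroup.mk' N) x.2)
  refine Subgroup.isNilpotent_of_ker_le_center f ?_
  intro x hx
  rw [mem_center_iff]
  intro y
  have hx' : (x : X) ∈ N := (QuotientGroup.eq_one_iff _).1 (congrArg Subtype.val hx)
  exact Subtype.ext (hle y.2 x hx').symm

end FAx

theorem fa : FA.{u} := by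
  intro G _ _ hss hs hN
  have h0 : Nat.card G ≠ 0 := Nat.card_pos.ne'
  have hsq : Squarefree (∏ p ∈ (Nat.card G).primeFactors, p) := by
    refine Finset.squarefree_prod_of_pairwise_isCoprime (fun p hp q hq hpq => ?_)
      (fun p hp => (Nat.prime_of_mem_primeFactors hp).squarefree)
    exact Nat.coprime_iff_isRelPrime.1 ((Nat.coprime_primes (Nat.prime_of_mem_primeFactors hp)
      (Nat.prime_of_mem_primeFactors hq)).2 hpq)
  have hn := FAx.nil (∏ p ∈ (Nat.card G).primeFactors, p) G hss hs (fun k a b => by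
    rw [← Nat.prod_primeFactors_of_squarefree a]
    exact Finset.prod_dvd_prod_of_subset _ _ _ (Nat.primeFactors_mono b h0))
  have hle := CL.Grp.le_fittingSubgroup hn
  refine ⟨Normal.quotient_commutative_iff_commutator_le.2 ((FAx.comm_le_M _ G).trans hle), ?_⟩
  refine hsq.squarefree_of_dvd (Monoid.exponent_dvd_of_forall_pow_eq_one fun x => ?_)
  obtain ⟨g, rfl⟩ := QuotientGroup.mk_surjective x
  rw [← QuotientGroup.mk_pow, QuotientGroup.eq_one_iff]
  exact hle (FAx.pow_mem_M _ g)

end CL.Sqf
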