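/-
Project SQF (S4132): the derived subgroup of the Fitting subgroup has square-free order.
-/
import Cfsg.Agent.SQF.Defs
import Cfsg.Agent.Fgs.Breadth
import Cfsg.Agent.Grp.Fitting
import Cfsg.Agent.Grp.CoresPi

set_option autoImplicit false

namespace CL.Sqf

open Cfsg Subgroup CL.Even CL.Fgs CL.Grp
open scoped commutatorElement

universe u

namespace FDx

theorem pgrp {X : Type*} [Group X] [Finite X] {p : ℕ} [hp : Fact p.Prime] (hX : IsPGroup p X) (h : SQ X) :
    ¬ p * p ∣ Nat.card (commutator X) := fun hd => by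
  have := card_commutator_le_of_breadth hX (b := 1) fun x => by
    obtain ⟨k, hk⟩ := hX.index cent(x)
    obtain ⟨j, hj⟩ := (IsPGroup.iff_orderOf.1 hX) x
    have hs := h x ⟨p, j, hp.out, hj⟩
    rw [hk] at hs ⊢
    refine Nat.pow_le_pow_right hp.out.pos ?_
    by_contra hk'
    exact Nat.squarefree_iff_prime_squarefree.1 hs p hp.out (sq p ▸ pow_dvd_pow p (by omega : 2 ≤ k))
  have h2 := (Nat.le_of_dvd Nat.card_pos hd).trans this
  have := hp.out.two_le
  norm_num at h2
  nlinarith

theorem nilp {X : Type*} [Group X] [Finite X] (hX : Group.IsNilpotent X) (h : SQ X) :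
    Squarefree (Nat.card (commutator X)) := Nat.squarefree_iff_prime_squarefree.2 fun p hp hd => by
  have := Fact.mk hp
  set N := pPrimeCore p X
  have ht : pCore p X ⊔ N = ⊤ :=
    top_unique ((fittingSubgroup_eq_top_iff.2 hX).ge.trans (fittingSubgroup_le_pCore_sup_pPrimeCore p))
  have hQ : IsPGroup p (X ⧸ N) := by
    have e : (pCore p X).map (QuotientGroup.mk' N) = ⊤ := by
      rw [← map_top_of_surjective _ (QuotientGroup.mk'_surjective N), ← ht, Subgroup.map_sup,
        (Subgroup.map_eq_bot_iff N).2 (QuotientGroup.ker_mk' N).ge, sup_bot_eq]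
    have := (pCore_isPGroup p X).map (QuotientGroup.mk' N)
    rw [e] at this
    exact this.of_equiv topEquiv
  apply pgrp hQ (h.map (QuotientGroup.mk'_surjective N))
  rw [_root_.commutator_def, ← map_top_of_surjective _ (QuotientGroup.mk'_surjective N), ← map_commutator,
    ← _root_.commutator_def, ← relIndex_ker, QuotientGroup.ker_mk']
  rw [← (N.subgroupOf (commutator X)).card_mul_index] at hd
  refine Nat.Coprime.dvd_of_dvd_mul_left ?_ hd
  have h1 : p.Coprime (Nat.card (N.subgroupOf (commutator X))) :=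
    hp.coprime_iff_not_dvd.2 fun h1 => not_dvd_card_pPrimeCore p X
      (h1.trans (card_comap_dvd_of_injective N _ (subtype_injective _)))
  exact Nat.Coprime.mul_left h1 h1

end FDx

theorem fd : FD.{u} := fun G _ _ h => by
  have hN := fittingSubgroup_isNilpotent G
  have hs := FDx.nilp hN (h.normal (fittingSubgroup G))
  refine ⟨hs, fun hc => ?_⟩
  have := IsZGroup.of_squarefree hs
  have hcyc : IsCyclic (commutator ↥(fittingSubgroup G)) := inferInstance
  have e : (commutator ↥(fittingSubgroup G)).map (fittingSubgroup G).subtype =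
      ⁅fittingSubgroup G, fittingSubgroup G⁆ := map_subtype_commutator _
  have h2 : derivedSeries G 2 ≤ ⁅fittingSubgroup G, fittingSubgroup G⁆ := commutator_mono hc hc
  rw [eq_bot_iff]
  refine (commutator_mono h2 h2).trans (commutator_le.2 ?_)
  rw [← e]
  rintro _ ⟨a, ha, rfl⟩ _ ⟨b, hb, rfl⟩
  rw [mem_bot, commutatorElement_eq_one_iff_mul_comm, ← map_mul, ← map_mul]
  exact congrArg _ (congrArg Subtype.val (hcyc.isMulCommutative.is_comm.comm ⟨a, ha⟩ ⟨b, hb⟩))

end CL.Sqf
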