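/-
Project SQF (S4132): step LT, two transvections.
-/
import Cfsg.Agent.SQF.Defs

set_option autoImplicit false

namespace CL.Sqf

open Cfsg Subgroup CL.Even CL.Fgs

universe u

theorem lt : LT.{u} := by
  intro G _ _ R u t a b c d h ta tb au bu
  obtain ⟨j, hj, -⟩ := h.se a ta.nr b tb.nr ta.sq tb.sq ta.nm au bu
  have key : (a * b) ^ 4 ∉ cent(u) := fun h4 => by
    have h1 : (a * b) ^ (2 * j + 1) ∈ cent(u) := mem_centralizer_singleton_iff.2 (h.cen _ hj)
    have h2 := pow_mem h1 (2 * j + 1)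
    rw [← pow_mul, show (2 * j + 1) * (2 * j + 1) = 4 * (j * j + j) + 1 by ring, pow_succ, pow_mul,
      mul_mem_cancel_left (pow_mem h4 _), mul_mem_cancel_left (mem_centralizer_singleton_iff.2 au)] at h2
    exact bu (mem_centralizer_singleton_iff.1 h2)
  have fin : ∀ φ : MulAut G, φ = MulAut.conj (a * b) → φ (φ (φ (φ u))) ≠ u := by
    rintro _ rfl e
    refine key (mem_centralizer_singleton_iff.2 ?_)
    simp only [MulAut.conj_apply] at e
    rw [← mul_inv_eq_iff_eq_mul, ← e.symm.trans e, ← e]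
    conv_lhs => rw [e]
    simp only [pow_succ, pow_zero, one_mul]
    group
  set φ := MulAut.conj (a * b) with hφ
  have ap : ∀ x, φ x = a * (b * x * b⁻¹) * a⁻¹ := fun x => by rw [hφ, MulAut.conj_apply]; group
  have e1 : φ u = u * (a * d * a⁻¹) := by
    rw [ap, (tb.act u h.mem).resolve_left fun e => bu (mul_inv_eq_iff_eq_mul.1 e), ← mul_assoc, au]; group
  have e2 : φ d = a * d * a⁻¹ := by rw [ap, tb.ac, mul_inv_cancel_right]
  have first : a * d ≠ d * a := fun e => by
    rw [e, mul_inv_cancel_right] at e1 e2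
    have : φ (φ u) = u := by rw [e1, map_mul, e1, e2, mul_assoc, tb.cc, mul_one]
    exact fin φ rfl (by rw [this, this])
  refine ⟨first, fun e => ?_⟩
  rw [(ta.act d tb.cm).resolve_left fun e => first (mul_inv_eq_iff_eq_mul.1 e)] at e1 e2
  have e3 : φ c = c := by rw [ap, e, mul_inv_cancel_right, ta.ac, mul_inv_cancel_right]
  have e4 : φ (φ u) = u * c := by
    rw [e1, map_mul, map_mul, e1, e2, e3, mul_assoc d c c, ta.cc, mul_one, ta.cen d tb.cm, mul_assoc, mul_assoc, tb.cc,
      mul_one]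
  exact fin φ rfl (by rw [e4, map_mul, map_mul, e4, e3, e3, mul_assoc, ta.cc, mul_one])

end CL.Sqf
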