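/-
Project SQF (S4132): the first consequences of the maximal configuration.
-/
import Cfsg.Agent.SQF.Defs
import Cfsg.Agent.Grp.SylowIn

set_option autoImplicit false

namespace CL.Sqf

open Cfsg Subgroup CL.Even CL.Fgs

universe u

namespace MXx

variable {G : Type u} [Group G] {R : Subgroup G} {u t : G}

theorem cm_iff (g d u : G) : d * (g * u * g⁻¹) = g * u * g⁻¹ * d ↔ g⁻¹ * d * g * u = u * (g⁻¹ * d * g) := by
  constructor
  · intro h
    calc g⁻¹ * d * g * u = g⁻¹ * (d * (g * u * g⁻¹)) * g := by group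
      _ = _ := by rw [h]; group
  · intro h
    calc d * (g * u * g⁻¹) = g * (g⁻¹ * d * g * u) * g⁻¹ := by group
      _ = _ := by rw [h]; group

theorem dc (h : Cfg R u t) : ∀ g ∈ 𝒩(R), ∀ D : Subgroup G, IsPGroup 2 D → R ≤ D →
    (∀ d ∈ D, d * (g * u * g⁻¹) = g * u * g⁻¹ * d) ∨ ∀ d ∈ D, d * (g * u * g⁻¹) = g * u * g⁻¹ * d → d ∈ R := by
  intro g hg D hD hle
  have m : ∀ d ∈ D, g⁻¹ * d * g ∈ cj g⁻¹ D := fun d hd => by simpa using conj_mem_cj g⁻¹ hd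
  refine (h.dich (cj g⁻¹ D) (isPGroup_cj hD _) ((cj_eq (inv_mem hg)).ge.trans (cj_mono _ hle))).imp
    (fun k d hd => (cm_iff g d u).2 (k _ (m d hd))) fun k d hd e => ?_
  simpa [mul_assoc] using conj_mem hg (k _ (m d hd) ((cm_iff g d u).1 e))

theorem cv [Finite G] (h : Cfg R u t) : ∀ c ∈ 𝒩(R), Two c →
    (∀ g ∈ 𝒩(R), c * (g * u * g⁻¹) = g * u * g⁻¹ * c) → c ∈ R := by
  intro c hc ⟨k, hk⟩ hcu
  have : Fact (Nat.Prime 2) := ⟨Nat.prime_two⟩
  obtain ⟨j, hj⟩ := two_of_mem h.two h.tt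
  have ht : t ^ 2 ^ (j + 1) = 1 := by rw [pow_succ', pow_mul, pow_two, hj]
  obtain ⟨S, hS, hle⟩ := CL.Grp.exists_isSylowIn_ge (H := 𝒩(R))
    (isPGroup_sup (isPGroup_zpowers hk) h.two (zpowers_le.2 hc)) (sup_le (zpowers_le.2 hc) le_normalizer)
  obtain ⟨g, hg, hg'⟩ := hS.exists_conj_le (isPGroup_zpowers ht) (zpowers_le.2 h.tn)
  have m : g * t * g⁻¹ ∈ S := hg' (CL.Grp.conj_mem_conj_smul g (mem_zpowers t))
  rcases dc h g hg S hS.isPGroup (le_sup_right.trans hle) with k | k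
  · exact absurd (by simpa [mul_assoc] using (cm_iff g _ u).1 (k _ m)) h.tu
  · exact k c (hle (mem_sup_left (mem_zpowers c))) (hcu g hg)

theorem se [Finite G] (h : Cfg R u t) : ∀ a ∈ 𝒩(R), ∀ b ∈ 𝒩(R), a * a ∈ R → b * b ∈ R → a ∉ R → a * u = u * a →
    b * u ≠ u * b → ∃ j : ℕ, (a * b) ^ (2 * j + 1) ∈ R ∧ ∃ ρ ∈ R, b = (a * b) ^ j * a * ((a * b) ^ j)⁻¹ * ρ := by
  intro a ha b hb haa hbb haR hau hbu
  have : Fact (Nat.Prime 2) := ⟨Nat.prime_two⟩
  let π := QuotientGroup.mk' (R.subgroupOf 𝒩(R))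
  have k1 : ∀ x : 𝒩(R), π x = 1 ↔ (x : G) ∈ R := fun x => QuotientGroup.eq_one_iff x
  have grp : ∀ x y : 𝒩(R), π x * π x = 1 → π y * π y = 1 → π x * π y = π y * π x →
      ∃ D : Subgroup G, IsPGroup 2 D ∧ R ≤ D ∧ (x : G) ∈ D ∧ (y : G) ∈ D := fun x y h1 h2 h3 => by
    have hK : IsPGroup 2 (zpowers (π x) ⊔ zpowers (π y) : Subgroup _) :=
      isPGroup_sup (isPGroup_zpowers (k := 1) (by rw [pow_one, pow_two, h1]))
        (isPGroup_zpowers (k := 1) (by rw [pow_one, pow_two, h2]))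
        ((zpowers_le.2 (show π x ∈ 𝒞(zpowers (π y)) from
          le_centralizer_iff.1 (zpowers_le.2 fun z hz => by
            obtain ⟨n, rfl⟩ := hz
            exact ((show Commute (π x) (π y) from h3).zpow_left n).eq) (mem_zpowers _))).trans (cent_le_norm _))
    refine ⟨_, (hK.comap_of_ker_isPGroup π (by
      rw [QuotientGroup.ker_mk']; exact h.two.comap_subtype)).map (𝒩(R)).subtype, fun r hr => ?_,
      ⟨x, mem_sup_left (mem_zpowers _), rfl⟩, ⟨y, mem_sup_right (mem_zpowers _), rfl⟩⟩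
    refine ⟨⟨r, le_normalizer hr⟩, ?_, rfl⟩
    rw [SetLike.mem_coe, mem_comap, (k1 ⟨r, le_normalizer hr⟩).2 hr]
    exact one_mem _
  let a' : 𝒩(R) := ⟨a, ha⟩
  let b' : 𝒩(R) := ⟨b, hb⟩
  have hA : π a' * π a' = 1 := by rw [← map_mul]; exact (k1 _).2 haa
  have hB : π b' * π b' = 1 := by rw [← map_mul]; exact (k1 _).2 hbb
  have hAi : (π a')⁻¹ = π a' := inv_eq_of_mul_eq_one_right hA
  have hBi : (π b')⁻¹ = π b' := inv_eq_of_mul_eq_one_right hB
  have iA : ∀ n : ℕ, π a' * (π a' * π b') ^ n * (π a')⁻¹ = ((π a' * π b') ^ n)⁻¹ := fun n => by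
    rw [← conj_pow, ← mul_assoc, hA, one_mul, ← inv_pow, mul_inv_rev, hBi]
  have iB : ∀ n : ℕ, π b' * (π a' * π b') ^ n * (π b')⁻¹ = ((π a' * π b') ^ n)⁻¹ := fun n => by
    rw [← conj_pow, ← mul_assoc, mul_inv_cancel_right, ← inv_pow, mul_inv_rev, hBi, hAi]
  have e0 := pow_orderOf_eq_one (π a' * π b')
  have pos := orderOf_pos (π a' * π b')
  rcases Nat.even_or_odd' (orderOf (π a' * π b')) with ⟨k, e | e⟩
  · exfalso
    have hz : π ((a' * b') ^ k) = (π a' * π b') ^ k := by rw [map_pow, map_mul]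
    have hz1 : ((a' * b') ^ k : 𝒩(R)).1 ∉ R := fun m =>
      pow_ne_one_of_lt_orderOf (by omega) (by omega) (hz ▸ (k1 _).2 m)
    have hz2 : (π a' * π b') ^ k * (π a' * π b') ^ k = 1 := by rw [← pow_add, ← two_mul, ← e, e0]
    have hzi := inv_eq_of_mul_eq_one_right hz2
    obtain ⟨D, d1, d2, d3, d4⟩ := grp a' ((a' * b') ^ k) hA (by rwa [hz])
      (by rw [hz]; exact mul_inv_eq_iff_eq_mul.1 ((iA k).trans hzi))
    obtain ⟨D', c1, c2, c3, c4⟩ := grp b' ((a' * b') ^ k) hB (by rwa [hz])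
      (by rw [hz]; exact mul_inv_eq_iff_eq_mul.1 ((iB k).trans hzi))
    have z1 := (h.dich D d1 d2).resolve_right (fun k => haR (k _ d3 hau)) _ d4
    exact hbu ((h.dich D' c1 c2).resolve_right (fun k => hz1 (k _ c4 z1)) _ c3)
  · rw [e] at e0
    refine ⟨k, (k1 ((a' * b') ^ (2 * k + 1))).1 (by rwa [map_pow, map_mul]),
      ((a * b) ^ k * a * ((a * b) ^ k)⁻¹)⁻¹ * b, (k1 (((a' * b') ^ k * a' * ((a' * b') ^ k)⁻¹)⁻¹ * b')).1 ?_,
      by rw [mul_inv_cancel_left]⟩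
    rw [map_mul, map_inv, map_mul, map_mul, map_inv, map_pow, map_mul, inv_mul_eq_one, ← iA k]
    generalize π a' = A at *
    generalize π b' = B at *
    have e1 : (A * B) ^ k * (A * B) ^ k = (A * B)⁻¹ := by
      rw [← pow_add, ← two_mul]
      exact eq_inv_of_mul_eq_one_left (by rw [← pow_succ, e0])
    rw [← mul_assoc, ← mul_assoc, mul_assoc _ A A, hA, mul_one, e1, mul_inv_rev, hAi, hBi, mul_assoc, hA, mul_one]

end MXx

theorem mx : MX.{u} := fun _ _ _ _ _ _ h => ⟨h, MXx.dc h, MXx.cv h, MXx.se h⟩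

end CL.Sqf
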