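/-
Project SQF: isolated elements of odd prime order in `L₂(2ⁿ)` and in `A₇`.
-/
import Cfsg.Agent.SQF.Defs
import Cfsg.Agent.S2119

set_option autoImplicit false

namespace CL.Sqf

open Cfsg Subgroup CL.Even CL.Fgs

namespace QE2x

theorem sq1 {F : Type} [Field F] (h2 : (2 : F) = 0) {a : F} (h : a * a = 1) : a = 1 := by
  have : (a - 1) * (a - 1) = 0 := by linear_combination h + (1 - a) * h2
  exact sub_eq_zero.1 (mul_self_eq_zero.1 this)

/-- the diagonal matrix -/
def dg {F : Type} [Field F] : Fˣ →* Matrix.SpecialLinearGroup (Fin 2) F := MonoidHom.mk'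
  (fun l => ⟨!![(l : F), 0; 0, ((l⁻¹ : Fˣ) : F)], by simp [Matrix.det_fin_two]⟩) fun a b => by
    apply Subtype.ext
    change !![((a * b : Fˣ) : F), 0; 0, (((a * b)⁻¹ : Fˣ) : F)] =
      !![(a : F), 0; 0, ((a⁻¹ : Fˣ) : F)] * !![(b : F), 0; 0, ((b⁻¹ : Fˣ) : F)]
    simp [mul_comm]

theorem dg_val {F : Type} [Field F] (l : Fˣ) : (dg l).1 = !![(l : F), 0; 0, ((l⁻¹ : Fˣ) : F)] := rfl

theorem comm7 (s : Equiv.Perm (Fin 7)) (h : s * finRotate 7 = finRotate 7 * s) (h2 : s * s = 1) : s = 1 := by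
  have k : ∀ i, s (finRotate 7 i) = finRotate 7 (s i) := fun i => DFunLike.congr_fun h i
  have k1 : ∀ i : Fin 7, s (i + 1) = s i + 1 := fun i => by simpa [finRotate_apply] using k i
  have e1 : s 1 = s 0 + 1 := k1 0
  have e2 : s 2 = s 1 + 1 := k1 1
  have e3 : s 3 = s 2 + 1 := k1 2
  have e4 : s 4 = s 3 + 1 := k1 3
  have e5 : s 5 = s 4 + 1 := k1 4
  have e6 : s 6 = s 5 + 1 := k1 5
  have a : ∀ i, s i = s 0 + i := fun i => by
    fin_cases i
    · simp
    · exact e1
    all_goals simp only [Fin.reduceFinMk, e6, e5, e4, e3, e2, e1, add_assoc]; rfl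
  have b : s 0 + s 0 = 0 := by rw [← a]; exact DFunLike.congr_fun h2 0
  have c : ∀ j : Fin 7, j + j = 0 → j = 0 := by decide
  ext i
  rw [a, c _ b, zero_add]; rfl

end QE2x

open QE2x

theorem qe2 : QE2 := by
  intro F _ _ n hn hc
  classical
  have h2 : (2 : F) = 0 := by
    have := FiniteField.cast_card_eq_zero F
    rw [hc] at this
    exact pow_eq_zero_iff (n := n) (by omega) |>.1 (by exact_mod_cast this)
  have h4 : 4 ≤ 2 ^ n := by simpa using Nat.pow_le_pow_right (n := 2) (by decide) hn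
  have hu : Nat.card Fˣ = 2 ^ n - 1 := by rw [Nat.card_units, Nat.card_eq_fintype_card, hc]
  obtain ⟨r, hr, hd⟩ := Nat.exists_prime_and_dvd (n := 2 ^ n - 1) (by omega)
  have r2 : r ≠ 2 := by
    rintro rfl
    have : 2 ∣ 2 ^ n := dvd_pow_self 2 (by omega)
    omega
  have := Fact.mk hr
  obtain ⟨l, hl⟩ := exists_prime_orderOf_dvd_card' (G := Fˣ) r (hu ▸ hd)
  have ll : (l : F) * l ≠ 1 := fun e => by
    have : l = 1 := Units.ext (sq1 h2 e)
    rw [this, orderOf_one] at hl
    exact hr.one_lt.ne hl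
  have cen : center (Matrix.SpecialLinearGroup (Fin 2) F) = ⊥ := eq_bot_iff.2 fun A hA => by
    obtain ⟨c, h1, h3⟩ := Matrix.SpecialLinearGroup.mem_center_iff.1 hA
    have : c = 1 := sq1 h2 (by simpa [pow_two] using h1)
    rw [this, map_one] at h3
    exact Subtype.ext h3.symm
  have inj : Function.Injective (QuotientGroup.mk' (center (Matrix.SpecialLinearGroup (Fin 2) F))) := by
    rw [← MonoidHom.ker_eq_bot_iff, QuotientGroup.ker_mk', cen]
  refine ⟨QuotientGroup.mk' _ (dg l), ?_, fun g g1 g2 => ?_⟩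
  · have : orderOf (QuotientGroup.mk' (center (Matrix.SpecialLinearGroup (Fin 2) F)) (dg l)) ∣ r ^ 1 := by
      rw [pow_one, ← hl]
      exact (orderOf_map_dvd _ _).trans (orderOf_map_dvd _ _)
    obtain ⟨k, -, hk⟩ := (Nat.dvd_prime_pow hr).1 this
    exact ⟨r, k, hr, r2, hk⟩
  · obtain ⟨g, rfl⟩ := QuotientGroup.mk'_surjective _ g
    have e1 : g * g = 1 := inj (by rw [map_mul, map_one]; exact g1)
    have e2 : g * dg l = dg l * g := inj (by rw [map_mul, map_mul]; exact g2)
    have li : (l : F) * ((l⁻¹ : Fˣ) : F) = 1 := by simp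
    have a01 : g 0 1 * ((l⁻¹ : Fˣ) : F) = l * g 0 1 := by
      simpa [dg_val, Matrix.mul_apply, Fin.sum_univ_two] using congrArg (fun A => A.1 0 1) e2
    have a10 : g 1 0 * l = ((l⁻¹ : Fˣ) : F) * g 1 0 := by
      simpa [dg_val, Matrix.mul_apply, Fin.sum_univ_two] using congrArg (fun A => A.1 1 0) e2
    have b01 : g 0 1 = 0 := by
      have : ((l : F) * l - 1) * g 0 1 = 0 := by linear_combination (-(l : F)) * a01 + g 0 1 * li
      exact (mul_eq_zero.1 this).resolve_left (sub_ne_zero.2 ll)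
    have b10 : g 1 0 = 0 := by
      have : ((l : F) * l - 1) * g 1 0 = 0 := by linear_combination (l : F) * a10 + g 1 0 * li
      exact (mul_eq_zero.1 this).resolve_left (sub_ne_zero.2 ll)
    have b00 : g 0 0 = 1 := sq1 h2 (by
      simpa [Matrix.mul_apply, Fin.sum_univ_two, b01] using congrArg (fun A => A.1 0 0) e1)
    have b11 : g 1 1 = 1 := sq1 h2 (by
      simpa [Matrix.mul_apply, Fin.sum_univ_two, b01] using congrArg (fun A => A.1 1 1) e1)
    have : g = 1 := by
      ext i j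
      fin_cases i <;> fin_cases j <;> simp [b00, b01, b10, b11]
    rw [this]; exact map_one _

theorem qa7 : QA7 := by
  have mx : finRotate 7 ∈ alternatingGroup (Fin 7) := by
    rw [Equiv.Perm.mem_alternatingGroup]; decide
  have : Fact (Nat.Prime 7) := ⟨by decide⟩
  have : Fact (Nat.Prime 3) := ⟨by decide⟩
  have : Fact (Nat.Prime 2) := ⟨by decide⟩
  refine ⟨⟨finRotate 7, mx⟩, ⟨7, 1, by decide, by decide, ?_⟩, fun g g1 g2 => Subtype.ext
    (comm7 g (congrArg Subtype.val g2) (congrArg Subtype.val g1)), fun φ h1 h2 => ?_⟩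
  · rw [← Subgroup.orderOf_coe]
    exact orderOf_eq_prime (p := 7) (x := finRotate 7) (by decide) (by decide)
  · obtain ⟨i, sj⟩ := Cfsg.Agent.S2119.result 7 (by decide) (by decide)
    obtain ⟨s, rfl⟩ := sj φ
    have s2 : s * s = 1 := i (by rw [map_mul, map_one]; exact MulEquiv.ext h1)
    have s1 : s * finRotate 7 = finRotate 7 * s := by
      have := congrArg Subtype.val h2
      rw [MulAut.conjNormal_apply] at this
      exact mul_inv_eq_iff_eq_mul.1 this
    rw [comm7 s s1 s2, map_one]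
    refine ⟨⟨Equiv.swap 0 1 * Equiv.swap 1 2, by rw [Equiv.Perm.mem_alternatingGroup]; decide⟩,
      ⟨Equiv.swap 1 2 * Equiv.swap 2 3, by rw [Equiv.Perm.mem_alternatingGroup]; decide⟩, rfl, rfl, ?_, ?_, ?_⟩
    · rw [← Subgroup.orderOf_coe, orderOf_eq_prime (p := 3) (by decide) (by decide)]; decide
    · rw [← Subgroup.orderOf_coe, orderOf_eq_prime (p := 3) (by decide) (by decide)]; decide
    · rw [← Subgroup.orderOf_coe, orderOf_eq_prime (p := 2) (by decide) (by decide)]; decide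

end CL.Sqf
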