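/-
Project SQF (S4132): `PSL₂(q)`, `q` odd, is `Good`.
-/
import Cfsg.Agent.SQF.Defs
import Cfsg.Agent.Cls.SL2Tori

set_option autoImplicit false

namespace CL.Sqf.QL2x

open Cfsg Subgroup Matrix CL.SL2 CL.GL2
open scoped MatrixGroups

variable {F : Type*} [Field F]

theorem pow_of_trace (p : ℕ) [CharP F p] {g : SL(2, F)} (h : g 0 0 + g 1 1 = 2) : g ^ p = 1 := by
  have hd := sl_det g
  have hN : ((g : Matrix (Fin 2) (Fin 2) F) - 1) * ((g : Matrix (Fin 2) (Fin 2) F) - 1) = 0 := by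
    ext i j
    fin_cases i <;> fin_cases j <;> simp [Matrix.mul_apply, Fin.sum_univ_two]
    · linear_combination (g 0 0 - 1) * h - hd + h
    · linear_combination (g 0 1) * h
    · linear_combination (g 1 0) * h
    · linear_combination (g 1 1 - 1) * h - hd + h
  have k : ∀ n : ℕ, (g : Matrix (Fin 2) (Fin 2) F) ^ n = 1 + (n : F) • ((g : Matrix (Fin 2) (Fin 2) F) - 1) := by
    intro n
    induction n with
    | zero => simp
    | succ n ih =>
      have e : (g : Matrix (Fin 2) (Fin 2) F) = 1 + ((g : Matrix (Fin 2) (Fin 2) F) - 1) := by simp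
      generalize (g : Matrix (Fin 2) (Fin 2) F) - 1 = N at hN ih e
      rw [pow_succ, ih, e, add_mul, one_mul, smul_mul_assoc, mul_add, mul_one, hN, add_zero, Nat.cast_succ, add_smul,
        one_smul]
      abel
  refine Subtype.ext ((Matrix.SpecialLinearGroup.coe_pow g p).trans ?_)
  rw [k, CharP.cast_eq_zero, zero_smul, add_zero]
  rfl

theorem trace_of_pow (p : ℕ) [Fact p.Prime] [CharP F p] {g : SL(2, F)} (h : g ^ p = 1) : g 0 0 + g 1 1 = 2 := by
  have h1 : ((g : Matrix (Fin 2) (Fin 2) F) - 1) ^ p = 0 := by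
    rw [sub_pow_char_of_commute _ (Commute.one_right _), one_pow, sub_eq_zero]
    exact (Matrix.SpecialLinearGroup.coe_pow g p).symm.trans (congrArg Subtype.val h)
  have h2 := (Matrix.isNilpotent_trace_of_isNilpotent ⟨p, h1⟩).eq_zero
  rw [trace_sub, trace_fin_two, trace_one] at h2
  simp only [Fintype.card_fin, Nat.cast_ofNat] at h2
  exact sub_eq_zero.1 h2

/-- the transvection -/
def xx : SL(2, F) := sl 1 1 0 1 (by ring)
/-- the unipotent elements `y` with `x y x` of order four -/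
def yy (a : F) : SL(2, F) := sl a (1 - a * (2 - a)) (-1) (2 - a) (by ring)

theorem tr_xyx (g : SL(2, F)) :
    ((xx * g * xx : SL(2, F)) : Matrix (Fin 2) (Fin 2) F).trace = g 0 0 + g 1 1 + 2 * g 1 0 := by
  rw [trace_fin_two]
  simp [xx, coe_sl, Matrix.mul_apply, Fin.sum_univ_two, Matrix.vecMul, dotProduct]
  ring

theorem neg_ent (g : SL(2, F)) (i j : Fin 2) : (-g : SL(2, F)) i j = -(g i j) := rfl

theorem iso (h2 : (2 : F) ≠ 0) : Iso ((xx : SL(2, F)) : PSL(2, F)) := by
  intro h e1 e2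
  induction h using QuotientGroup.induction_on with | H g =>
  rw [← QuotientGroup.mk_mul, psl_mk_eq_one_iff] at e1
  rw [← QuotientGroup.mk_mul, ← QuotientGroup.mk_mul, psl_mk_eq_iff] at e2
  have hd := sl_det g
  rcases e2 with e2 | e2
  · have a1 := congrArg (fun m : SL(2, F) => m 0 0) e2
    have a2 := congrArg (fun m : SL(2, F) => m 0 1) e2
    simp [xx, coe_sl, Matrix.mul_apply, Fin.sum_univ_two] at a1 a2
    rcases e1 with e1 | e1
    · exact psl_mk_eq_one_iff.2 (sl_eq_of_mul_self h2 e1)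
    · rw [mul_self_eq_neg_one_iff, trace_fin_two] at e1
      have a3 : g 0 0 = 0 := by
        have : 2 * g 0 0 = 0 := by linear_combination e1 + a2
        exact (mul_eq_zero.1 this).resolve_left h2
      rw [a3, a1] at hd
      simp at hd
  · have a1 := congrArg (fun m : SL(2, F) => m 1 0) e2
    have a2 := congrArg (fun m : SL(2, F) => m 0 0) e2
    simp [neg_ent, xx, coe_sl, Matrix.mul_apply, Fin.sum_univ_two] at a1 a2
    have a3 : g 1 0 = 0 := by
      have : 2 * g 1 0 = 0 := by linear_combination a1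
      exact (mul_eq_zero.1 this).resolve_left h2
    have a4 : g 0 0 = 0 := by
      have : 2 * g 0 0 = 0 := by linear_combination a2 - a3
      exact (mul_eq_zero.1 this).resolve_left h2
    rw [a3, a4] at hd
    simp at hd

/-- the defining property of the set `Y` -/
def PY (p : ℕ) (x y : PSL(2, F)) : Prop := y ^ p = 1 ∧ x * y * x * (x * y * x) = 1 ∧ x * y * x ≠ 1

theorem py_yy (h2 : (2 : F) ≠ 0) (p : ℕ) [CharP F p] (a : F) :
    PY p ((xx : SL(2, F)) : PSL(2, F)) (yy a : SL(2, F)) := by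
  have e : (xx * yy a * xx) * (xx * yy a * xx) = (-1 : SL(2, F)) := by
    rw [mul_self_eq_neg_one_iff, tr_xyx]
    simp [yy, coe_sl]
  refine ⟨psl_pow_eq_one_iff.2 (.inl (pow_of_trace p (by simp [yy, coe_sl]))), ?_, ?_⟩
  · simp only [← QuotientGroup.mk_mul]
    exact psl_mk_eq_one_iff.2 (.inr e)
  · simp only [← QuotientGroup.mk_mul]
    intro k
    rcases psl_mk_eq_one_iff.1 k with k | k <;> rw [k] at e
    · exact neg_one_ne_one_sl h2 (by simpa using e.symm)
    · exact neg_one_ne_one_sl h2 (by simpa using e.symm)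

theorem yy_inj (h2 : (2 : F) ≠ 0) {a b : F} (h : ((yy a : SL(2, F)) : PSL(2, F)) = (yy b : SL(2, F))) : a = b := by
  rcases psl_mk_eq_iff.1 h with e | e
  · simpa [yy, coe_sl] using congrArg (fun m : SL(2, F) => m 0 0) e
  · have a1 := congrArg (fun m : SL(2, F) => m 1 0) e
    simp [neg_ent, yy, coe_sl] at a1
    exact absurd (by linear_combination -a1) h2

theorem yy_surj (h2 : (2 : F) ≠ 0) (p : ℕ) [Fact p.Prime] [CharP F p] (hp : Odd p) {y : PSL(2, F)}
    (h : PY p ((xx : SL(2, F)) : PSL(2, F)) y) : ∃ a, ((yy a : SL(2, F)) : PSL(2, F)) = y := by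
  obtain ⟨g, hg, rfl⟩ : ∃ g : SL(2, F), g ^ p = 1 ∧ (g : PSL(2, F)) = y := by
    induction y using QuotientGroup.induction_on with | H g =>
    rcases psl_pow_eq_one_iff.1 h.1 with k | k
    · exact ⟨g, k, rfl⟩
    · exact ⟨-g, by rw [hp.neg_pow, k, neg_neg], psl_mk_eq_iff.2 (.inr rfl)⟩
  obtain ⟨-, e1, e2⟩ := h
  simp only [← QuotientGroup.mk_mul] at e1 e2
  have t := trace_of_pow p hg
  have hd := sl_det g
  rcases psl_mk_eq_one_iff.1 e1 with k | k
  · exact absurd (psl_mk_eq_one_iff.2 (sl_eq_of_mul_self h2 k)) e2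
  · rw [mul_self_eq_neg_one_iff, tr_xyx, t] at k
    have c : g 1 0 = -1 := by
      have : 2 * (g 1 0 + 1) = 0 := by linear_combination k
      exact eq_neg_of_add_eq_zero_left ((mul_eq_zero.1 this).resolve_left h2)
    refine ⟨g 0 0, congrArg _ ?_⟩
    ext i j
    fin_cases i <;> fin_cases j <;> simp [yy, coe_sl]
    · rw [c] at hd
      linear_combination -hd + g 0 0 * t
    · exact c.symm
    · linear_combination -t

end CL.Sqf.QL2x

namespace CL.Sqf

open Cfsg Subgroup Matrix CL.SL2 CL.GL2 QL2x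
open scoped MatrixGroups

theorem ql2 : QL2 := by
  intro F _ _ hF
  classical
  obtain ⟨p, hc⟩ := CharP.exists F
  have hpp : p.Prime := CharP.char_is_prime F p
  have : Fact p.Prime := ⟨hpp⟩
  have h2 : (2 : F) ≠ 0 := fun h => (Nat.not_even_iff_odd.2 hF) (even_card_of_two_eq_zero h)
  have hp2 : p ≠ 2 := by
    rintro rfl
    exact h2 (by simpa using CharP.cast_eq_zero F 2)
  have hp : Odd p := hpp.odd_of_ne_two hp2
  set x : PSL(2, F) := ((xx : SL(2, F)) : PSL(2, F)) with hx
  have xp : x ^ p = 1 := psl_pow_eq_one_iff.2 (.inl (pow_of_trace p (by simp [xx, coe_sl]; norm_num)))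
  have od : ∀ y : PSL(2, F), y ^ p = 1 → Odd (orderOf y) := fun y h => hp.of_dvd_nat (orderOf_dvd_of_pow_eq_one h)
  refine ⟨x, ?_, iso h2, fun φ h1 h3 => ?_⟩
  · obtain ⟨k, -, hk⟩ := (Nat.dvd_prime_pow hpp (m := 1) (i := orderOf x)).1
      (by rw [pow_one]; exact orderOf_dvd_of_pow_eq_one xp)
    exact ⟨p, k, hpp, hp2, hk⟩
  let Y := {y : PSL(2, F) // PY p x y}
  let e : F ≃ Y := Equiv.ofBijective (fun a => ⟨_, py_yy h2 p a⟩)
    ⟨fun a b h => yy_inj h2 (congrArg Subtype.val h), fun y =>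
      let ⟨a, ha⟩ := yy_surj h2 p hp y.2; ⟨a, Subtype.ext ha⟩⟩
  have : Fintype Y := Fintype.ofEquiv F e
  have hY : ¬ 2 ∣ Fintype.card Y := by
    rw [← Fintype.card_congr e, ← even_iff_two_dvd, Nat.not_even_iff_odd]; exact hF
  have q : ∀ y, x * φ y * x = φ (x * y * x) := fun y => by rw [map_mul, map_mul, h3]
  let f : Y → Y := fun y => ⟨φ y.1, by rw [← map_pow, y.2.1, map_one], by
    rw [q, ← map_mul, y.2.2.1, map_one], by
    rw [q]; exact fun k => y.2.2.2 (φ.injective (k.trans (map_one φ).symm))⟩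
  have hf : Function.Involutive f := fun y => Subtype.ext (h1 y.1)
  have : Fact (Nat.Prime 2) := ⟨Nat.prime_two⟩
  obtain ⟨y, hy⟩ := Equiv.Perm.exists_fixed_point_of_prime (p := 2) (n := 1) hY (σ := hf.toPerm f)
    (Equiv.ext fun y => hf y)
  have hy' : φ y.1 = y.1 := congrArg Subtype.val hy
  obtain ⟨y, y1, y2, y3⟩ := y
  rcases Nat.even_or_odd (orderOf (x * y)) with k | k
  · exact ⟨x, y, h3, hy', od x xp, od y y1, k⟩
  · refine ⟨x * y, x, by rw [map_mul, h3, hy'], h3, k, od x xp, ?_⟩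
    rw [orderOf_eq_prime (p := 2) (by rw [pow_two]; exact y2) y3]
    exact even_two

end CL.Sqf
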