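/-
Project SQF (S4132): a regular unipotent element of `PSL₃(q)`, `q` odd, commutes with no involution.
-/
import Cfsg.Agent.SQF.Defs

set_option autoImplicit false

namespace CL.Sqf

open Cfsg Subgroup CL.Even CL.Fgs

namespace QL3x

variable (F : Type) [Field F]

/-- the regular unipotent element -/
def X : Matrix.SpecialLinearGroup (Fin 3) F := ⟨!![1, 1, 0; 0, 1, 1; 0, 0, 1], by simp [Matrix.det_fin_three]⟩

theorem X_pow {p : ℕ} [hp : Fact p.Prime] [CharP F p] (h2 : p ≠ 2) : X F ^ p = 1 := by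
  have h3 : 3 ≤ p := by have := hp.out.two_le; omega
  have e : ((X F : Matrix.SpecialLinearGroup (Fin 3) F) : Matrix (Fin 3) (Fin 3) F) =
      1 + !![0, 1, 0; 0, 0, 1; 0, 0, 0] := by
    ext i j; fin_cases i <;> fin_cases j <;> simp [X]
  have h0 : (!![0, 1, 0; 0, 0, 1; 0, 0, 0] : Matrix (Fin 3) (Fin 3) F) ^ 3 = 0 := by
    ext i j; fin_cases i <;> fin_cases j <;> simp [pow_succ, Matrix.mul_apply, Fin.sum_univ_three]
  refine Subtype.ext ?_
  rw [Matrix.SpecialLinearGroup.coe_pow, e, add_pow_char_of_commute p (Commute.one_left _), one_pow,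
    pow_eq_zero_of_le h3 h0, add_zero]
  rfl

variable {F}

theorem scal (h2 : (2 : F) ≠ 0) (A : Matrix (Fin 3) (Fin 3) F) (hd : A.det = 1) {r s : F}
    (h1 : !![1, 1, 0; 0, 1, 1; 0, 0, 1] * A = A * !![1, 1, 0; 0, 1, 1; 0, 0, 1] * Matrix.scalar (Fin 3) r)
    (h3 : Matrix.scalar (Fin 3) s = A * A) : A 0 0 ^ 3 = 1 ∧ Matrix.scalar (Fin 3) (A 0 0) = A := by
  have e := fun i j => congrFun (congrFun h1 i) j
  have e01 := e 0 1
  have e02 := e 0 2
  have e11 := e 1 1
  have e12 := e 1 2
  have e20 := e 2 0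
  have e21 := e 2 1
  have e22 := e 2 2
  have f01 := congrFun (congrFun h3 0) 1
  have f02 := congrFun (congrFun h3 0) 2
  rw [Matrix.det_fin_three] at hd
  simp [Matrix.mul_apply, Fin.sum_univ_three] at e01 e02 e11 e12 e20 e21 e22 f01 f02
  have hr : r = 1 := by
    by_contra hr
    have hr' : 1 - r ≠ 0 := fun h => hr (by linear_combination -h)
    have a0 : A 2 0 = 0 := (mul_eq_zero.1 (show (1 - r) * A 2 0 = 0 by linear_combination e20)).resolve_left hr'
    have a1 : A 2 1 = 0 := (mul_eq_zero.1 (show (1 - r) * A 2 1 = 0 by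
      linear_combination e21 + r * a0)).resolve_left hr'
    have a2 : A 2 2 = 0 := (mul_eq_zero.1 (show (1 - r) * A 2 2 = 0 by
      linear_combination e22 + r * a1)).resolve_left hr'
    rw [a0, a1, a2] at hd
    simp at hd
  subst hr
  have a20 : A 2 0 = 0 := by linear_combination -e21
  have a21 : A 2 1 = 0 := by linear_combination -e22
  have a10 : A 1 0 = 0 := by linear_combination a21 - e11
  have a11 : A 1 1 = A 0 0 := by linear_combination e01
  have a22 : A 2 2 = A 0 0 := by linear_combination e12 + e01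
  have a12 : A 1 2 = A 0 1 := by linear_combination e02
  rw [a20, a21, a10, a11, a22] at hd
  have h0 : A 0 0 ^ 3 = 1 := by linear_combination hd
  have hne : 2 * A 0 0 ≠ 0 := mul_ne_zero h2 fun h => by rw [h] at h0; simp at h0
  rw [a11, a21] at f01
  have a01 : A 0 1 = 0 := (mul_eq_zero.1 (show 2 * A 0 0 * A 0 1 = 0 by linear_combination -f01)).resolve_left hne
  rw [a22, a01] at f02
  have a02 : A 0 2 = 0 := (mul_eq_zero.1 (show 2 * A 0 0 * A 0 2 = 0 by linear_combination -f02)).resolve_left hne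
  refine ⟨h0, ?_⟩
  ext i j
  fin_cases i <;> fin_cases j <;> simp [a20, a21, a10, a11, a22, a12, a01, a02]

end QL3x

open QL3x in
theorem ql3 : QL3 := by
  intro F _ _ hodd
  have h2 : ringChar F ≠ 2 := fun e => by
    have := FiniteField.even_card_of_char_two e
    have := Nat.odd_iff.1 hodd
    omega
  have hp : (ringChar F).Prime := CharP.char_is_prime F _
  have := Fact.mk hp
  refine ⟨QuotientGroup.mk (X F), ?_, fun h hh hx => ?_⟩
  · have h1 : orderOf (QuotientGroup.mk (X F) : Matrix.ProjectiveSpecialLinearGroup (Fin 3) F) ∣ ringChar F ^ 1 :=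
      orderOf_dvd_of_pow_eq_one (by rw [pow_one, ← QuotientGroup.mk_pow, X_pow F h2, QuotientGroup.mk_one])
    obtain ⟨k, -, hk⟩ := (Nat.dvd_prime_pow hp).1 h1
    exact ⟨_, k, hp, h2, hk⟩
  · obtain ⟨A, rfl⟩ := QuotientGroup.mk_surjective h
    rw [← QuotientGroup.mk_mul, QuotientGroup.eq_one_iff, Matrix.SpecialLinearGroup.mem_center_iff] at hh
    rw [← QuotientGroup.mk_mul, ← QuotientGroup.mk_mul, QuotientGroup.eq,
      Matrix.SpecialLinearGroup.mem_center_iff] at hx
    obtain ⟨s, -, hs⟩ := hh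
    obtain ⟨r, -, hr⟩ := hx
    have h1 : X F * A = A * X F * ((A * X F)⁻¹ * (X F * A)) := by group
    have h3 := congrArg Subtype.val h1
    rw [Matrix.SpecialLinearGroup.coe_mul (A * X F), ← hr] at h3
    rw [QuotientGroup.eq_one_iff, Matrix.SpecialLinearGroup.mem_center_iff]
    exact ⟨_, scal (Ring.two_ne_zero h2) A A.2 h3 hs⟩

end CL.Sqf
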