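/-
Project SQF: Lemma Q, reduction to a perfect normal subgroup.
-/
import Cfsg.Agent.SQF.Defs
import Cfsg.Agent.Grp.CoresPi
import Cfsg.Agent.Grp.PGroupBasic

set_option autoImplicit false
set_option linter.unusedSectionVars false

namespace CL.Sqf

open Cfsg Subgroup CL.Even CL.Fgs

universe u

namespace QRx

theorem pg_closure {G : Type*} [Group G] {s : Set G} (n : ℕ) (hc : ∀ x ∈ s, ∀ y ∈ s, x * y = y * x)
    (hp : ∀ x ∈ s, x ^ 2 ^ n = 1) : IsPGroup 2 (closure s) := by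
  have cm : closure s ≤ centralizer (closure s : Set G) := by
    rw [centralizer_closure]
    exact (closure_le _).2 fun x hx y hy => hc y hy x hx
  rintro ⟨x, hx⟩
  refine ⟨n, Subtype.ext ?_⟩
  show x ^ 2 ^ n = 1
  induction hx using closure_induction with
  | mem x hx => exact hp x hx
  | one => exact one_pow _
  | mul x y hx hy h1 h2 => rw [(show Commute x y from cm hy x hx).mul_pow, h1, h2, one_mul]
  | inv x hx h1 => rw [inv_pow, h1, inv_one]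

theorem ds_congr {S T : Type*} [Group S] [Group T] (e : S ≃* T) (h : DS S) : DS T := by
  rcases h with ⟨n, ⟨f⟩⟩ | ⟨n, h1, h2, x, y, h3, h4, h5⟩
  · exact .inl ⟨n, ⟨e.symm.trans f⟩⟩
  · exact .inr ⟨n, h1, by rw [← Nat.card_congr e.toEquiv, h2], e x, e y, by rw [MulEquiv.orderOf_eq, h3],
      by rw [MulEquiv.orderOf_eq, h4], by simpa using congrArg e h5⟩

variable {Y : Type u} [Group Y] [Finite Y]

theorem exists_syl {a b c : Y} (h4 : Four a b) (hc : Two c) (ca : c * a = a * c) (cb : c * b = b * c) :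
    ∃ T : Sylow 2 Y, a ∈ (T : Subgroup Y) ∧ b ∈ (T : Subgroup Y) ∧ c ∈ (T : Subgroup Y) := by
  obtain ⟨k, hk⟩ := hc
  have sq : ∀ x : Y, x * x = 1 → x ^ 2 ^ (k + 1) = 1 := fun x hx => by rw [pow_succ', pow_mul, pow_two, hx, one_pow]
  obtain ⟨T, hT⟩ := (pg_closure (s := {a, b, c}) (k + 1)
    (by rintro x (rfl | rfl | rfl) y (rfl | rfl | rfl) <;>
          first | rfl | exact h4.2.2.1 | exact h4.2.2.1.symm | exact ca | exact ca.symm | exact cb | exact cb.symm)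
    (by rintro x (rfl | rfl | rfl)
        exacts [sq _ h4.1, sq _ h4.2.1, by rw [pow_succ, pow_mul, hk, one_pow]])).exists_le_sylow
  exact ⟨T, hT (subset_closure (by simp)), hT (subset_closure (by simp)), hT (subset_closure (by simp))⟩

theorem tg (tg1 : TG1.{u}) (S : Sylow 2 Y) (hS : DS (S : Subgroup Y)) {a b c : Y} (h4 : Four a b) (hc : Two c)
    (ca : c * a = a * c) (cb : c * b = b * c) : c = 1 ∨ c = a ∨ c = b ∨ c = a * b := by
  obtain ⟨T, ha, hb, hc'⟩ := exists_syl h4 hc ca cb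
  have := tg1 (T : Subgroup Y) T.isPGroup' (ds_congr (Sylow.equiv S T) hS) ⟨a, ha⟩ ⟨b, hb⟩ ⟨c, hc'⟩
    ⟨Subtype.ext h4.1, Subtype.ext h4.2.1, Subtype.ext h4.2.2.1, fun e => h4.2.2.2.1 (congrArg Subtype.val e),
      fun e => h4.2.2.2.2.1 (congrArg Subtype.val e), fun e => h4.2.2.2.2.2 (congrArg Subtype.val e)⟩
    (Subtype.ext ca) (Subtype.ext cb)
  exact this.imp (congrArg Subtype.val) (Or.imp (congrArg Subtype.val) (Or.imp (congrArg Subtype.val)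
    (congrArg Subtype.val)))

/-- a normal subgroup of even order contains a non-trivial element of the centre of a Sylow subgroup -/
theorem exists_cen (T : Sylow 2 Y) (N : Subgroup Y) [hN : N.Normal] (h : 2 ∣ Nat.card N) :
    ∃ z ∈ N, z ∈ (T : Subgroup Y) ∧ z ≠ 1 ∧ ∀ s ∈ (T : Subgroup Y), z * s = s * z := by
  obtain ⟨t, ht⟩ := exists_prime_orderOf_dvd_card' 2 h
  have t2 : (t : Y) ^ 2 ^ 1 = 1 := by rw [pow_one, ← ht, ← orderOf_coe, pow_orderOf_eq_one]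
  obtain ⟨T', hT'⟩ := (isPGroup_zpowers t2).exists_le_sylow
  obtain ⟨g, rfl⟩ := MulAction.exists_smul_eq Y T' T
  have m : g * t * g⁻¹ ∈ ((g • T' : Sylow 2 Y) : Subgroup Y) := ⟨t, hT' (mem_zpowers _), rfl⟩
  have := (g • T').isPGroup'.isNilpotent
  have ne : N.subgroupOf ((g • T' : Sylow 2 Y) : Subgroup Y) ≠ ⊥ := fun e => by
    have k : (⟨_, m⟩ : ((g • T' : Sylow 2 Y) : Subgroup Y)) ∈ N.subgroupOf _ := hN.conj_mem _ t.2 g
    rw [e, mem_bot] at k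
    have k' : (t : Y) = 1 := by simpa using congrArg Subtype.val k
    rw [show t = 1 from Subtype.ext k', orderOf_one] at ht
    exact absurd ht (by decide)
  obtain ⟨⟨z, hz⟩, z1⟩ := ne_bot_iff_exists_ne_one.1 (CL.Grp.inf_center_ne_bot ne)
  exact ⟨z, hz.1, z.2, fun e => z1 (Subtype.ext (Subtype.ext e)),
    fun s hs => congrArg Subtype.val (mem_center_iff.1 hz.2 ⟨s, hs⟩).symm⟩

/-- a `3`-element acting like `σ` -/
theorem exists_three {a b σ : Y} (h3 : b * (a * b) = a) (h1 : σ * a * σ⁻¹ = b) (h2 : σ * b * σ⁻¹ = a * b) :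
    ∃ m : ℕ, OddP (σ ^ m) ∧ σ ^ m * a * (σ ^ m)⁻¹ = b ∧ σ ^ m * b * (σ ^ m)⁻¹ = a * b := by
  obtain ⟨j, s, hs, e⟩ := Nat.exists_eq_pow_mul_and_not_dvd (orderOf_pos σ).ne' 3 (by decide)
  obtain ⟨m, hm1, hm2⟩ := Nat.chineseRemainder ((Nat.prime_three.coprime_iff_not_dvd).2 hs).symm 0 1
  have h4 : σ * (a * b) * σ⁻¹ = a := by
    rw [show σ * (a * b) * σ⁻¹ = σ * a * σ⁻¹ * (σ * b * σ⁻¹) by group, h1, h2, h3]
  have ca : Commute (σ ^ 3) a := mul_inv_eq_iff_eq_mul.1 (by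
    rw [show σ ^ 3 * a * (σ ^ 3)⁻¹ = σ * (σ * (σ * a * σ⁻¹) * σ⁻¹) * σ⁻¹ by
      simp only [pow_three, mul_inv_rev, mul_assoc], h1, h2, h4])
  have cb : Commute (σ ^ 3) b := mul_inv_eq_iff_eq_mul.1 (by
    rw [show σ ^ 3 * b * (σ ^ 3)⁻¹ = σ * (σ * (σ * b * σ⁻¹) * σ⁻¹) * σ⁻¹ by
      simp only [pow_three, mul_inv_rev, mul_assoc], h2, h4, h1])
  have em : σ ^ m = (σ ^ 3) ^ (m / 3) * σ := by
    rw [← pow_mul, ← pow_succ]
    congr 1
    have : m % 3 = 1 := hm2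
    omega
  have k : ∀ w v : Y, σ * w * σ⁻¹ = v → Commute (σ ^ 3) v → σ ^ m * w * (σ ^ m)⁻¹ = v := fun w v h c => by
    rw [em, show (σ ^ 3) ^ (m / 3) * σ * w * ((σ ^ 3) ^ (m / 3) * σ)⁻¹ =
      (σ ^ 3) ^ (m / 3) * (σ * w * σ⁻¹) * ((σ ^ 3) ^ (m / 3))⁻¹ by simp only [mul_inv_rev, mul_assoc], h,
      (c.pow_left _).eq, mul_inv_cancel_right]
  have d : orderOf (σ ^ m) ∣ 3 ^ j := by
    apply orderOf_dvd_of_pow_eq_one
    rw [← pow_mul]
    apply orderOf_dvd_iff_pow_eq_one.1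
    rw [e, mul_comm m]
    exact Nat.mul_dvd_mul_left _ ((Nat.modEq_zero_iff_dvd).1 hm1)
  obtain ⟨i, -, hi⟩ := (Nat.dvd_prime_pow Nat.prime_three).1 d
  exact ⟨m, ⟨3, i, Nat.prime_three, by decide, hi⟩, k _ _ h1 cb, k _ _ h2 (ca.mul_right cb)⟩

theorem core (tg1 : TG1.{u}) (lqp : LQP.{u}) (S : Sylow 2 Y) (K : Subgroup Y) [hK : K.Normal] {a b σ : Y}
    (hS : DS (S : Subgroup Y)) (hO : oddCore Y = ⊥) (h4 : Four a b) (ha : a ∈ K) (hσ : σ ∈ K)
    (h1 : σ * a * σ⁻¹ = b) (h2 : σ * b * σ⁻¹ = a * b) : ∃ x ∈ K, OddP x ∧ Iso x := by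
  obtain ⟨aa, bb, ab, a1, b1, ne⟩ := id h4
  have h3 : b * (a * b) = a := by rw [ab, ← mul_assoc, bb, one_mul]
  obtain ⟨N, ⟨hN, N0, NK⟩, hmin⟩ := exists_minimal_of_wellFoundedLT (fun N : Subgroup Y => N.Normal ∧ N ≠ ⊥ ∧ N ≤ K)
    ⟨K, hK, fun e => a1 (mem_bot.1 (e ▸ ha)), le_rfl⟩
  have ev : 2 ∣ Nat.card N := by
    by_contra n
    exact N0 (le_bot_iff.1 (hO ▸ CL.Grp.le_pPrimeCore ((Nat.prime_two.coprime_iff_not_dvd).2 n).symm))
  obtain ⟨T, Ta, Tb, -⟩ := exists_syl (c := 1) h4 ⟨0, by simp⟩ (by simp) (by simp)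
  obtain ⟨z, zN, zT, z1, zc⟩ := exists_cen T N ev
  have s1 : a ∈ N → b ∈ N := fun h => h1 ▸ hN.conj_mem _ h σ
  have s2 : b ∈ N → a ∈ N := fun h => (mul_mem_cancel_right h).1 (h2 ▸ hN.conj_mem _ h σ)
  have aN : a ∈ N := by
    rcases tg tg1 S hS h4 (two_of_mem T.isPGroup' zT) (zc a Ta) (zc b Tb) with e | e | e | e
    · exact absurd e z1
    · exact e ▸ zN
    · exact s2 (e ▸ zN)
    · have := hN.conj_mem _ (e ▸ zN) σ
      rwa [show σ * (a * b) * σ⁻¹ = σ * a * σ⁻¹ * (σ * b * σ⁻¹) by group, h1, h2, h3] at this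
  have bN := s1 aN
  by_cases hc : ⁅N, N⁆ = ⊥
  swap
  · have le : ⁅N, N⁆ ≤ N := commutator_le_left N N
    obtain ⟨x, hx, k⟩ := lqp Y S N a b hS hO
      (isPerfect_iff.2 (le_antisymm le (hmin ⟨inferInstance, hc, le.trans NK⟩ le))) h4 aN bN
    exact ⟨x, NK hx, k⟩
  have cm : ∀ x ∈ N, ∀ y ∈ N, x * y = y * x := fun x hx y hy => (commutator_eq_bot_iff_le_centralizer.1 hc hy x hx)
  obtain ⟨m, op, x1, x2⟩ := exists_three h3 h1 h2
  refine ⟨σ ^ m, pow_mem hσ m, op, fun h hh hx => ?_⟩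
  generalize σ ^ m = x at x1 x2 hx
  have x3 : x * (a * b) * x⁻¹ = a := by
    rw [show x * (a * b) * x⁻¹ = x * a * x⁻¹ * (x * b * x⁻¹) by group, x1, x2, h3]
  have fx : ∀ w, h * (x * w * x⁻¹) * h⁻¹ = x * (h * w * h⁻¹) * x⁻¹ := fun w => by
    rw [show h * (x * w * x⁻¹) * h⁻¹ = h * x * w * (h * x)⁻¹ by group, hx]; group
  have ff : ∀ w, h * (h * w * h⁻¹) * h⁻¹ = w := fun w => by
    rw [show h * (h * w * h⁻¹) * h⁻¹ = h * h * w * (h * h)⁻¹ by group, hh]; group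
  have fb := fx a
  rw [x1] at fb
  have m' := hN.conj_mem _ aN h
  have fa : h * a * h⁻¹ = a := by
    rcases tg tg1 S hS h4 (c := h * a * h⁻¹) ⟨1, by
      rw [pow_one, pow_two, show h * a * h⁻¹ * (h * a * h⁻¹) = h * (a * a) * h⁻¹ by group, aa]; group⟩
      (cm _ m' _ aN) (cm _ m' _ bN) with e | e | e | e
    · exact absurd (by simpa using e) a1
    · exact e
    · have := ff a
      rw [e, fb, e, x2] at this
      exact absurd (mul_eq_left.1 this) b1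
    · have := ff b
      rw [fb, e, x3, e] at this
      exact absurd (mul_eq_right.1 this) a1
  rw [fa, x1] at fb
  have xh : x * h * x⁻¹ = h := by rw [← hx, mul_inv_cancel_right]
  rcases tg tg1 S hS h4 (c := h) ⟨1, by rw [pow_one, pow_two, hh]⟩ (mul_inv_eq_iff_eq_mul.1 fa)
    (mul_inv_eq_iff_eq_mul.1 fb) with e | e | e | e
  · exact e
  · rw [e, x1] at xh
    exact absurd xh.symm ne
  · rw [e, x2] at xh
    exact absurd (mul_eq_right.1 xh) a1
  · rw [e, x3] at xh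
    exact absurd (mul_eq_left.1 xh.symm) b1

end QRx

open QRx in
theorem qr : QR.{u} := by
  intro tg1 lqp X _ _ S K _ a b σ hS h4 ha _ hσ h1 h2
  obtain ⟨aa, bb, ab, a1, b1, ne⟩ := id h4
  let π := QuotientGroup.mk' (oddCore X)
  have sj : Function.Surjective π := QuotientGroup.mk'_surjective _
  have inj : ∀ x, Two x → π x = 1 → x = 1 := fun x ⟨k, hk⟩ e => eq_one_of_coprime_of_pow
    ((CL.Grp.pPrimeCore_coprime 2 X).coprime_dvd_left
      ((oddCore X).orderOf_dvd_natCard ((QuotientGroup.eq_one_iff x).1 e))) hk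
  have sq : ∀ x : X, x * x = 1 → Two x := fun x hx => ⟨1, by rw [pow_one, pow_two, hx]⟩
  have e : (S : Subgroup X) ≃* (S.mapSurjective sj : Subgroup (X ⧸ oddCore X)) :=
    MulEquiv.ofBijective (π.subgroupMap S) ⟨(injective_iff_map_eq_one _).2 fun x hx =>
      Subtype.ext (inj x (two_of_mem S.isPGroup' x.2) (congrArg Subtype.val hx)), π.subgroupMap_surjective _⟩
  have := Subgroup.Normal.map ‹K.Normal› π sj
  obtain ⟨_, ⟨g, hg, rfl⟩, ⟨r, k, hr, r2, ho⟩, iso⟩ := core tg1 lqp (S.mapSurjective sj) (K.map π) (a := π a) (b := π b)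
    (σ := π σ) (ds_congr e hS) (CL.Grp.pPrimeCore_quotient_pPrimeCore 2 X)
    ⟨by rw [← map_mul, aa, map_one], by rw [← map_mul, bb, map_one], by rw [← map_mul, ab, map_mul],
      fun k => a1 (inj a (sq a aa) k), fun k => b1 (inj b (sq b bb) k), fun k => ne (by
        have := inj (a * b) (sq _ (by rw [mul_assoc, ← mul_assoc b, ← ab, mul_assoc a, bb, mul_one, aa]))
          (by rw [map_mul, k, ← map_mul, bb, map_one])
        rw [← mul_one a, ← bb, ← mul_assoc, this, one_mul])⟩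
    ⟨a, ha, rfl⟩ ⟨σ, hσ, rfl⟩ (by rw [← h1, map_mul, map_mul, map_inv]) (by rw [← map_mul π a b, ← h2, map_mul, map_mul, map_inv])
  obtain ⟨m, j, e1, e2⟩ := exists_lift π g hr ho
  exact ⟨g ^ m, pow_mem hg m, ⟨r, j, hr, r2, e2⟩, fun h hh hx => inj h (sq h hh)
    (iso (π h) (by rw [← map_mul, hh, map_one]) (by rw [← e1, ← map_mul, hx, map_mul]))⟩

end CL.Sqf
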