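/-
Project SQF (S4132): a regular unipotent element of `PSU₃(q)`, `q ≡ 1 mod 4`.
-/
import Cfsg.Agent.SQF.Defs
import Cfsg.Agent.Cls.UniSimple

set_option autoImplicit false

namespace CL.Sqf

open Cfsg Subgroup CL.Even Matrix

namespace QU3x

variable {F : Type} [Field F] {i : F}

/-- a one-parameter unipotent group -/
def xm (i t : F) : Matrix (Fin 3) (Fin 3) F :=
  !![1 - 2 * t ^ 2, -2 * t, 2 * t ^ 2 * i; 2 * t, 1, -2 * t * i; 2 * t ^ 2 * i, 2 * t * i, 1 + 2 * t ^ 2]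

theorem xm_zero : xm i 0 = 1 := by
  ext a b; fin_cases a <;> fin_cases b <;> simp [xm]

theorem xm_tr (t : F) : (xm i t)ᵀ = xm i (-t) := by
  ext a b; fin_cases a <;> fin_cases b <;> simp [xm]

theorem xm_mul (hi : i * i = -1) (s t : F) : xm i s * xm i t = xm i (s + t) := by
  ext a b; fin_cases a <;> fin_cases b <;> simp [xm, Matrix.mul_apply, Fin.sum_univ_three] <;> grind

theorem xm_det (hi : i * i = -1) (t : F) : (xm i t).det = 1 := by
  simp [xm, det_fin_three]; grind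

theorem xm_pow (hi : i * i = -1) (n : ℕ) : xm i 1 ^ n = xm i n := by
  induction n with
  | zero => simp [xm_zero]
  | succ n ih => rw [pow_succ, ih, xm_mul hi, Nat.cast_succ]

theorem scal (hi : i * i = -1) (h2 : (2 : F) ≠ 0) {h : Matrix (Fin 3) (Fin 3) F} {c : F} (hd : h.det = 1)
    (hc : h * xm i 1 = xm i 1 * h) (hs : h * h = c • 1) : h = h 1 1 • 1 := by
  have e := fun a b => congrFun (congrFun hc a) b
  have f := fun a b => congrFun (congrFun hs a) b
  have e00 := e 0 0; have e01 := e 0 1; have e02 := e 0 2; have e10 := e 1 0; have e11 := e 1 1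
  have e12 := e 1 2; have e20 := e 2 0; have e21 := e 2 1
  have f10 := f 1 0; have f02 := f 0 2
  simp [xm, Matrix.mul_apply, Fin.sum_univ_three] at e00 e01 e02 e10 e11 e12 e20 e21 f10 f02
  rw [det_fin_three] at hd
  have a1 : h 0 1 = -h 1 0 := by grind
  have a2 : h 1 2 = -h 1 0 * i := by grind
  have a3 : h 2 1 = h 1 0 * i := by grind
  have a4 : h 0 0 = h 1 1 + h 0 2 * i := by grind
  have a5 : h 2 2 = h 1 1 - h 0 2 * i := by grind
  have a6 : h 2 0 = h 0 2 := by grind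
  rw [a1, a2, a3, a4, a5, a6] at hd
  rw [a2, a4, a6] at f10
  rw [a1, a2, a4, a5] at f02
  have b1 : h 1 1 ^ 3 = 1 := by grind
  have b2 : h 1 0 = 0 := by grind
  have b3 : h 0 2 = 0 := by grind
  ext a b; fin_cases a <;> fin_cases b <;> simp [a1, a2, a3, a4, a5, a6, b2, b3]

end QU3x

open QU3x in
theorem qu3 : QU3 := by
  intro F _ _ q hF hq
  obtain ⟨i, hi⟩ : IsSquare (-1 : F) := FiniteField.isSquare_neg_one_iff.2 (by rw [hF, Nat.pow_mod, hq]; decide)
  replace hi := hi.symm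
  obtain ⟨p, _, n, hp, hn⟩ := FiniteField.card' F
  have p2 : p ≠ 2 := by
    rintro rfl
    have : Odd (2 ^ (n : ℕ)) := by rw [← hn, hF]; exact Odd.pow (Nat.odd_iff.2 (by omega))
    exact absurd (Nat.odd_pow_iff n.pos.ne' |>.1 this) (by decide)
  have h2 : (2 : F) ≠ 0 := fun k => p2 ((Nat.prime_dvd_prime_iff_eq hp Nat.prime_two).1
    ((CharP.cast_eq_zero_iff F p 2).1 k))
  have iq : Uni.bar hF i = i := by
    rw [Uni.bar_apply, ← Nat.div_add_mod q 4, hq, pow_succ, pow_mul, show i ^ 4 = 1 by grind, one_pow, one_mul]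
  have mp : (xm i 1).map (Uni.bar hF) = xm i 1 := by
    ext a b; fin_cases a <;> fin_cases b <;> simp [xm, iq, map_ofNat]
  have mem : (⟨xm i 1, xm_det hi 1⟩ : SpecialLinearGroup (Fin 3) F) ∈ SU 3 F q := fun u v => by
    have e : ∀ w : Fin 3 → F, (fun j => (xm i 1 *ᵥ w) j ^ q) = xm i 1 *ᵥ fun j => w j ^ q := fun w => by
      funext j
      exact (RingHom.map_mulVec (Uni.bar hF) (xm i 1) w j).trans (by rw [mp]; rfl)
    have e2 : ∀ u v : Fin 3 → F, hermForm 3 F q u v = u ⬝ᵥ fun j => v j ^ q := fun _ _ => rfl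
    change hermForm 3 F q (xm i 1 *ᵥ u) (xm i 1 *ᵥ v) = hermForm 3 F q u v
    rw [e2, e2, e, dotProduct_mulVec, vecMul_mulVec, xm_tr, xm_mul hi, neg_add_cancel, xm_zero, vecMul_one]
  set x : SU 3 F q := ⟨_, mem⟩ with hx
  have xp : x ^ p = 1 := Subtype.ext (Subtype.ext (by
    change xm i 1 ^ p = 1
    rw [xm_pow hi, CharP.cast_eq_zero, xm_zero]))
  refine ⟨x, ?_, fun h => QuotientGroup.induction_on h fun h h1 h3 => ?_⟩
  · obtain ⟨k, -, e⟩ := (Nat.dvd_prime_pow hp (m := 1)).1 (orderOf_dvd_of_pow_eq_one (x := (x : PSU 3 F q))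
      (by rw [pow_one, ← QuotientGroup.mk_pow, xp, QuotientGroup.mk_one]))
    exact ⟨p, k, hp, p2, e⟩
  rw [← QuotientGroup.mk_mul, QuotientGroup.eq_one_iff] at h1
  rw [← QuotientGroup.mk_mul, ← QuotientGroup.mk_mul, QuotientGroup.eq] at h3
  set z := (h * x)⁻¹ * (x * h) with hz
  have zc := mem_center_iff.1 h3
  have e1 : h⁻¹ * x * h = x * z := by rw [hz]; group
  have e2 : z ^ p = 1 := by
    have := conj_pow (a := h⁻¹) (b := x) (i := p)
    rwa [inv_inv, e1, (show Commute x z from zc x).mul_pow, xp, one_mul, mul_one, inv_mul_cancel] at this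
  have e3 : z ^ 2 = 1 := by
    have : x = x * (z * z) := calc
      x = (h * h)⁻¹ * (x * (h * h)) := by rw [mem_center_iff.1 h1 x, inv_mul_cancel_left]
      _ = h⁻¹ * (h⁻¹ * x * h) * h := by group
      _ = h⁻¹ * x * (z * h) := by rw [e1, ← mul_assoc h⁻¹ x z, mul_assoc _ z h]
      _ = h⁻¹ * x * h * z := by rw [← zc h, ← mul_assoc]
      _ = _ := by rw [e1, mul_assoc]
    rw [pow_two]; exact (left_eq_mul.1 this)
  have e4 : z = 1 := (pow_eq_one_iff_of_coprime ((Nat.coprime_primes hp Nat.prime_two).2 p2)).1 ⟨e2, e3⟩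
  obtain ⟨c, hc⟩ := (Uni.mem_center_SU hF (by decide) _).1 h1
  exact (QuotientGroup.eq_one_iff _).2 ((Uni.mem_center_SU hF (by decide) _).2 ⟨_, scal hi h2 h.1.2
    (congrArg (fun y : SU 3 F q => y.1.1) (inv_mul_eq_one.1 e4)) hc⟩)

end CL.Sqf
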