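/-
Project SQF (S4132), job SC1: the maximal configuration.
-/
import Cfsg.Agent.SQF.Defs
import Cfsg.Agent.Grp.SylowIn

set_option autoImplicit false

namespace CL.Sqf

open Cfsg Subgroup CL.Even CL.Fgs CL.Grp

universe u

namespace SC1x

variable {G : Type u} [Group G]

/-- admissible pairs -/
def Adm (n : ℕ) (p : Sylow 2 G × G) : Prop :=
  Two p.2 ∧ p.2 ^ 2 ^ n ∈ (p.1 : Subgroup G) ∧ ∃ s ∈ (p.1 : Subgroup G), s * p.2 ^ 2 ^ n ≠ p.2 ^ 2 ^ n * s

theorem exists_max [Finite G] {n : ℕ} (h : ¬ AllC G n) : ∃ p : Sylow 2 G × G, Adm n p ∧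
    ∀ p' : Sylow 2 G × G, Adm n p' →
      Nat.card ((p'.1 : Subgroup G) ⊓ centralizer {p'.2 ^ 2 ^ n} : Subgroup G) ≤
        Nat.card ((p.1 : Subgroup G) ⊓ centralizer {p.2 ^ 2 ^ n} : Subgroup G) := by
  have hne : {p : Sylow 2 G × G | Adm n p}.Nonempty := by
    by_contra h0
    refine h fun S y hy hm s hs => ?_
    by_contra hc
    exact h0 ⟨(S, y), hy, hm, s, hs, hc⟩
  exact Set.exists_max_image _ _ (Set.toFinite _) hne

end SC1x

open SC1x

theorem sc1 : SC1.{u} := by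
  intro mx br1 G _ _ n h4 hex hc
  have : Fact (Nat.Prime 2) := ⟨Nat.prime_two⟩
  obtain ⟨⟨S0, y0⟩, ⟨hy, hu, s, hs, hsu⟩, hmax⟩ := exists_max hc
  dsimp only at hy hu hs hsu hmax
  set v := y0 ^ 2 ^ n with hv
  set R : Subgroup G := (S0 : Subgroup G) ⊓ centralizer {v} with hR
  have mR : ∀ x, x ∈ R ↔ x ∈ (S0 : Subgroup G) ∧ x * v = v * x := fun x =>
    mem_inf.trans (and_congr_right' mem_centralizer_singleton_iff)
  have pR : IsPGroup 2 R := S0.2.to_inf_left
  have vR : v ∈ R := (mR v).2 ⟨hu, rfl⟩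
  obtain ⟨t, htS, htn, htR, htt⟩ := exists_up (R := R) S0.2 inf_le_left fun h => hsu ((mR s).1 (h hs)).2
  have cfg : Cfg R v t :=
    { two := pR
      mem := vR
      cen := fun ρ h => ((mR ρ).1 h).2
      dich := fun D hD hRD => by
        obtain ⟨S', hS'⟩ := hD.exists_le_sylow
        by_cases hz : ∀ d ∈ (S' : Subgroup G), d * v = v * d
        · exact Or.inl fun d hd => hz d (hS' hd)
        · push Not at hz
          have hle : R ≤ (S' : Subgroup G) ⊓ centralizer {v} := le_inf (hRD.trans hS') inf_le_right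
          have e := eq_of_le_of_card_ge hle (hmax (S', y0) ⟨hy, hS' (hRD vR), hz⟩)
          exact Or.inr fun d hd hdv => e ▸ mem_inf.2 ⟨hS' hd, mem_centralizer_singleton_iff.2 hdv⟩
      tn := htn
      tt := htt
      tu := fun h => htR ((mR t).2 ⟨htS, h⟩) }
  obtain ⟨S1, hy1, hb1, hz1⟩ := br1 G n h4 hex y0 hy
  have syl : IsSylowIn 2 (S1 : Subgroup G) (centralizer {v}) :=
    isSylowIn_of_le S1 fun x hx => mem_centralizer_singleton_iff.2 (hz1 x hx)
  obtain ⟨c, hcv, hcR⟩ := syl.exists_conj_le pR inf_le_right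
  rw [conj_smul_le_iff] at hcR
  have cv : c * v = v * c := mem_centralizer_singleton_iff.1 hcv
  have mS : ∀ x, x ∈ ((c⁻¹ • S1 : Sylow 2 G) : Subgroup G) ↔ c * x * c⁻¹ ∈ (S1 : Subgroup G) := fun x => by
    have := mem_sylow_smul_iff c⁻¹ x S1
    rwa [inv_inv] at this
  have cm : ∀ a b : G, c * a * c⁻¹ * b = b * (c * a * c⁻¹) ↔ a * (c⁻¹ * b * c) = c⁻¹ * b * c * a := fun a b => by
    constructor
    · intro h
      calc _ = c⁻¹ * (c * a * c⁻¹ * b) * c := by group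
        _ = _ := by rw [h]; group
    · intro h
      calc _ = c * (a * (c⁻¹ * b * c)) * c⁻¹ := by group
        _ = _ := by rw [h]; group
  have vc : c⁻¹ * v * c = v := by rw [mul_assoc, ← cv, inv_mul_cancel_left]
  refine ⟨R, v, t, c⁻¹ • S1, c⁻¹ * y0 * c, mx G R v t cfg, hex, fun x hx => (mS x).2 (hcR x hx),
    (mS _).2 (by simpa [mul_assoc] using hy1), fun a ha b hb h1 h2 => ?_, ?_, fun x hx => ?_⟩
  · have := hb1 _ ((mS a).1 ha) _ ((mS b).1 hb) (fun h => h1 ((cm a y0).1 h)) (fun h => h2 ((cm b y0).1 h))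
    rw [conj_mul] at this
    exact (cm _ y0).1 this
  · have := conj_pow (a := c⁻¹) (b := y0) (i := 2 ^ n)
    rw [inv_inv] at this
    rw [this, ← hv, vc]
  · have := (cm x v).1 (hz1 _ ((mS x).1 hx))
    rwa [vc] at this

end CL.Sqf
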