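/-
Project SQF (S4132): a strongly closed abelian subgroup from central powers (job SQF-SC2, helper27).
-/
import Cfsg.Agent.SQF.Defs

set_option autoImplicit false

namespace CL.Sqf

open Cfsg Subgroup CL.Even CL.Fgs

universe u

namespace SC2x

variable {G : Type u} [Group G]

/-- generated by the `2^n`-th powers -/
def A (n : ℕ) (S : Subgroup G) : Subgroup G := closure {w | ∃ s ∈ S, s ^ 2 ^ n = w}

theorem A_le (n : ℕ) (S : Subgroup G) : A n S ≤ S := (closure_le _).2 (by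
  rintro _ ⟨s, hs, rfl⟩
  exact pow_mem hs _)

theorem A_ind {n : ℕ} {S K : Subgroup G} (h : ∀ s ∈ S, s ^ 2 ^ n ∈ K) : A n S ≤ K := (closure_le _).2 (by
  rintro _ ⟨s, hs, rfl⟩
  exact h s hs)

theorem A_gen {n : ℕ} {S : Subgroup G} {s : G} (hs : s ∈ S) : s ^ 2 ^ n ∈ A n S := subset_closure ⟨s, hs, rfl⟩

theorem mem_smul (S : Sylow 2 G) (g x : G) : x ∈ ((g • S : Sylow 2 G) : Subgroup G) ↔ g⁻¹ * x * g ∈ (S : Subgroup G) := by
  rw [Sylow.coe_subgroup_smul, mem_pointwise_smul_iff_inv_smul_mem]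
  simp

theorem A_smul {n : ℕ} (S : Sylow 2 G) (g : G) {x : G} (hx : x ∈ A n (S : Subgroup G)) :
    g * x * g⁻¹ ∈ A n ((g • S : Sylow 2 G) : Subgroup G) := by
  have : A n (S : Subgroup G) ≤ (A n ((g • S : Sylow 2 G) : Subgroup G)).comap (MulAut.conj g).toMonoidHom :=
    A_ind fun s hs => by
      rw [mem_comap, map_pow]
      exact A_gen ((mem_smul S g _).2 (by simpa [mul_assoc] using hs))
  exact this hx

theorem A_cen {n : ℕ} (h : AllC G n) (S : Sylow 2 G) : A n (S : Subgroup G) ≤ 𝒞((S : Subgroup G)) :=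
  A_ind fun s hs => mem_centralizer_iff.2 fun x hx => h S s (two_of_mem S.2 hs) (pow_mem hs _) x hx

theorem lemM [Finite G] {n : ℕ} (h : AllC G n) {S₁ : Sylow 2 G} {u : G} (hu : u ∈ A n (S₁ : Subgroup G))
    {R : Subgroup G} (hR : IsPGroup 2 R) (hc : R ≤ cent(u)) :
    ∃ S₂ : Sylow 2 G, R ≤ (S₂ : Subgroup G) ∧ u ∈ A n (S₂ : Subgroup G) := by
  haveI : Fact (Nat.Prime 2) := ⟨Nat.prime_two⟩
  have h1 : (S₁ : Subgroup G) ≤ cent(u) := fun s hs => mem_cent.2 (comm_of_mem (A_cen h S₁ hu) hs)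
  obtain ⟨T, hT⟩ := (hR.comap_subtype (K := cent(u))).exists_le_sylow
  obtain ⟨m, hm⟩ := MulAction.exists_smul_eq cent(u) (S₁.subtype h1) T
  refine ⟨(m : G) • S₁, fun r hr => (mem_smul _ _ _).2 ?_, ?_⟩
  · have h2 : (⟨r, hc hr⟩ : cent(u)) ∈ ((m • S₁.subtype h1 : Sylow 2 cent(u)) : Subgroup cent(u)) := by
      rw [hm]; exact hT hr
    exact (mem_smul (S₁.subtype h1) m _).1 h2
  · have := A_smul S₁ (m : G) hu
    rwa [mem_cent_iff_conj.1 m.2] at this

theorem claim [Finite G] (mx : MX.{u}) {n : ℕ} (h : AllC G n) {S S₁ : Sylow 2 G} {u : G}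
    (hu : u ∈ A n (S₁ : Subgroup G)) (huS : u ∈ (S : Subgroup G)) : (S : Subgroup G) ≤ cent(u) := by
  by_contra hne
  obtain ⟨S, ⟨huS, hne⟩, hmax⟩ := Set.exists_max_image
    {S : Sylow 2 G | u ∈ (S : Subgroup G) ∧ ¬ (S : Subgroup G) ≤ cent(u)}
    (fun S => Nat.card ↥((S : Subgroup G) ⊓ cent(u))) (Set.toFinite _) ⟨S, huS, hne⟩
  have hR : IsPGroup 2 ↥((S : Subgroup G) ⊓ cent(u)) := S.2.to_le inf_le_left
  obtain ⟨t, htS, htn, htR, htt⟩ := exists_up S.2 (inf_le_left (b := cent(u))) fun hle => hne (hle.trans inf_le_right)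
  have cf : Cf ((S : Subgroup G) ⊓ cent(u)) u t := mx G _ u t
    { two := hR
      mem := ⟨huS, self_mem_cent u⟩
      cen := fun ρ hρ => mem_cent.1 hρ.2
      dich := fun D hD hRD => by
        obtain ⟨S', hS'⟩ := hD.exists_le_sylow
        by_cases hc : (S' : Subgroup G) ≤ cent(u)
        · exact Or.inl fun d hd => mem_cent.1 (hc (hS' hd))
        · have e : (S : Subgroup G) ⊓ cent(u) = (S' : Subgroup G) ⊓ cent(u) :=
            eq_of_le_of_card_ge (le_inf (hRD.trans hS') inf_le_right)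
              (hmax S' ⟨hS' (hRD ⟨huS, self_mem_cent u⟩), hc⟩)
          exact Or.inr fun d hd hdu => e ▸ ⟨hS' hd, mem_cent.2 hdu⟩
      tn := htn
      tt := htt
      tu := fun htu => htR ⟨htS, mem_cent.2 htu⟩ }
  obtain ⟨S₂, h2, hu2⟩ := lemM h hu hR inf_le_right
  have key : A n (S₂ : Subgroup G) ≤ 𝒞((S : Subgroup G)) := A_ind fun s hs => by
    have hw := A_cen h S₂ (A_gen (n := n) hs)
    have hwR := cf.cv (s ^ 2 ^ n) (cent_le_norm _ (cent_mono h2 hw)) (two_of_mem S₂.2 (pow_mem hs _)) fun g hg =>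
      (comm_of_mem hw (h2 (conj_mem hg cf.mem))).symm
    exact mem_centralizer_iff.2 fun x hx => h S s (two_of_mem S₂.2 hs) hwR.1 x hx
  exact hne fun s hs => mem_cent.2 (comm_of_mem (key hu2) hs)

end SC2x

open SC2x in
theorem sc2 : SC2.{u} := by
  intro mx G _ _ n h S
  refine ⟨A n (S : Subgroup G), fun s hs => A_gen hs, ⟨⟨fun a b => Subtype.ext ?_⟩⟩, A_le _ _, fun x hx g hg => ?_⟩
  · exact comm_of_mem (A_cen h S b.2) (A_le _ _ a.2)
  · have hu := A_smul S g hx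
    obtain ⟨S₂, h2, hu2⟩ := lemM h hu S.2 (claim mx h hu hg)
    rwa [S.3 S₂.2 h2] at hu2

end CL.Sqf
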