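/-
Project SQF: a group with a strongly embedded subgroup has an odd primary element with centraliser of odd order.
-/
import Cfsg.Agent.SQF.Defs
import Cfsg.Agent.Inv.StrongEmb

set_option autoImplicit false

namespace CL.Sqf

open Cfsg Subgroup CL.Inv

universe u

theorem sem : SEM.{u} := by
  intro G _ _ M hM
  have U := SE.uniqueFix hM
  obtain ⟨t, htM, ht⟩ := SE.exists_inv hM
  obtain ⟨s, hsM, hs⟩ := SE.exists_inv_notMem hM
  have ha : t • ((1 : G) : G ⧸ M) = ((1 : G) : G ⧸ M) := (SE.smul_one_eq_iff M t).2 htM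
  obtain ⟨b, hb⟩ := U.exists_fix hs
  have hab : ((1 : G) : G ⧸ M) ≠ b := fun e => hsM ((SE.smul_one_eq_iff M s).1 (by rw [e]; exact hb))
  have ho : Odd (orderOf (t * s)) := U.odd_orderOf_mul ht hs ha hb hab
  have t2 := SE.mul_self_of_inv ht
  have s2 := SE.mul_self_of_inv hs
  have h1 : orderOf (t * s) ≠ 1 := fun e => hsM (by
    rw [eq_inv_of_mul_eq_one_right (orderOf_eq_one_iff.1 e)]; exact inv_mem htM)
  have hr := Nat.minFac_prime h1
  have hd := Nat.minFac_dvd (orderOf (t * s))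
  have hx : orderOf ((t * s) ^ (orderOf (t * s) / (orderOf (t * s)).minFac)) = (orderOf (t * s)).minFac :=
    orderOf_pow_orderOf_div (orderOf_pos _).ne' hd
  have it : t * (t * s) * t⁻¹ = (t * s)⁻¹ := by
    rw [← mul_assoc t t, t2, one_mul, mul_inv_rev, SE.inv_eq_of_inv hs]
  have is : s * (t * s) * s⁻¹ = (t * s)⁻¹ := by
    rw [← mul_assoc, mul_inv_cancel_right, mul_inv_rev, SE.inv_eq_of_inv hs, SE.inv_eq_of_inv ht]
  refine ⟨(t * s) ^ (orderOf (t * s) / (orderOf (t * s)).minFac), ⟨_, 1, hr, fun e => ?_, by rw [hx, pow_one]⟩,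
    fun h hh hc => ?_⟩
  · exact (Nat.not_even_iff_odd.2 ho) (even_iff_two_dvd.2 (e ▸ hd))
  · by_contra h0
    have h2 := SE.inv_of_mul_self hh h0
    obtain ⟨c, hcf⟩ := U.exists_fix h2
    have key : ∀ k : G, orderOf k = 2 → k * (t * s) * k⁻¹ = (t * s)⁻¹ → k • c = c := fun k hk e => by
      by_contra hne
      have := U.eq_one_of_inverted_of_commute h2 hk hcf (Ne.symm hne) rfl
        (c := (t * s) ^ (orderOf (t * s) / (orderOf (t * s)).minFac)) (by rw [← conj_pow, e, inv_pow])
        (Commute.symm hc)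
      rw [this, orderOf_one] at hx
      exact hr.one_lt.ne hx
    exact hab ((U.eq ht ha (key t ht it)).trans (U.eq hs (key s hs is) hb))

end CL.Sqf
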