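import Cfsg.Agent.SQF.Defs
import Cfsg.Agent.Grp.Supersolv

/-! # SQF-SS: solvable groups with square-free primary class sizes are supersolvable -/

set_option autoImplicit false

namespace CL.Sqf

open Cfsg Subgroup CL.Even CL.Fgs CL.Grp

universe u

theorem SSx.le_of_sqf {p k n : ℕ} (hp : p.Prime) (hn : Squarefree n) (h : p ^ k ∣ n) : k ≤ 1 := by
  by_contra hk
  exact Nat.squarefree_iff_prime_squarefree.1 hn p hp
    ((sq p ▸ pow_dvd_pow p (by omega : 2 ≤ k)).trans h)

theorem ss : SS.{u} := by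
  intro G _ _
  refine induction_on_card (P := fun X _ _ => Group.IsSolvable X → SQ X → IsSupersolvable X) ?_ G
  intro X _ _ ih hs h
  rcases subsingleton_or_nontrivial X with hX | hX
  · exact isSupersolvable_of_subsingleton
  obtain ⟨N, p, hp, hN, hEA⟩ := exists_isMinNormal_isElementaryAbelian X
  have := hN.normal
  have hQ : IsSupersolvable (X ⧸ N) := ih _ (card_quotient_lt hN.ne_bot) inferInstance
    (h.map (QuotientGroup.mk'_surjective N))
  refine isSupersolvable_of_card_prime_normal N ?_ hQ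
  set C := centralizer (N : Set X) with hC
  by_cases hCt : C = ⊤
  · exact hN.card_prime_of_le_center (centralizer_eq_top_iff_subset.1 hCt)
  have hNC : N ≤ C := fun a ha => mem_centralizer_iff.2 fun b hb =>
    congrArg Subtype.val (hEA.1.is_comm.comm ⟨b, hb⟩ ⟨a, ha⟩)
  have hQ' : IsSupersolvable (X ⧸ C) := IsSupersolvable.of_surjective hQ (QuotientGroup.map N C (MonoidHom.id X) hNC)
    (QuotientGroup.map_surjective_of_surjective _ _ _ (QuotientGroup.mk_surjective) _)
  have : Nontrivial (X ⧸ C) := QuotientGroup.nontrivial_iff.2 hCt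
  obtain ⟨M, hMn, -, hM⟩ := IsSupersolvable.exists_normal_card_prime hQ' ⊤ top_ne_bot
  have := Fact.mk hM
  obtain ⟨g0, hg0⟩ := exists_prime_orderOf_dvd_card' (G := M) (Nat.card M) dvd_rfl
  have hgo : orderOf (g0 : X ⧸ C) = Nat.card M := by rw [Subgroup.orderOf_coe, hg0]
  have hg : (zpowers (g0 : X ⧸ C)).Normal := by
    rw [eq_of_le_of_card_ge (zpowers_le.2 g0.2) (by rw [Nat.card_zpowers, hgo])]; exact hMn
  have hg1 : (g0 : X ⧸ C) ≠ 1 := fun e => hM.ne_one (by rw [← hgo, e, orderOf_one])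
  obtain ⟨x, hx, hxp⟩ := exists_prim_lift (QuotientGroup.mk'_surjective C)
    (x := (g0 : X ⧸ C)) ⟨_, 1, hM, by rw [hgo, pow_one]⟩
  rw [← hx, QuotientGroup.mk'_apply] at hg hg1
  have hn : (N ⊓ cent(x)).Normal := ⟨fun n hn g => ⟨hN.normal.conj_mem n hn.1 g, by
    obtain ⟨k, hk⟩ := hg.conj_mem _ (mem_zpowers _) (g⁻¹ : X ⧸ C)
    have h1 : (x ^ k)⁻¹ * (g⁻¹ * x * g) ∈ C := by
      rw [← QuotientGroup.eq]; rw [inv_inv] at hk; simpa using hk
    have h2 : Commute n (g⁻¹ * x * g) := by
      have := ((mem_cent.1 hn.2).zpow_right k).mul_right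
        (show Commute n _ from mem_centralizer_iff.1 h1 n hn.1)
      rwa [mul_inv_cancel_left] at this
    have h3 := h2.map (MulAut.conj g)
    rw [MulAut.conj_apply, MulAut.conj_apply] at h3
    refine mem_cent.2 ?_
    convert h3 using 1
    group⟩⟩
  have hb : N ⊓ cent(x) = ⊥ := by
    by_contra hne
    have := hN.eq_of_le hne inf_le_left
    apply hg1
    rw [QuotientGroup.eq_one_iff, hC, mem_centralizer_iff]
    exact fun n hn => mem_cent.1 (this.ge hn).2
  have hd := relIndex_dvd_index_of_normal cent(x) N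
  rw [← inf_relIndex_left, hb, relIndex_bot_left] at hd
  obtain ⟨q, d, hq, hd0, e⟩ := hN.exists_card_eq_pow inferInstance
  have := SSx.le_of_sqf hq (h x hxp) (e ▸ hd)
  rw [e, show d = 1 by omega, pow_one]
  exact hq

end CL.Sqf
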